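import Mathlib
import Cfsg.Agent.Rcs.Defs
import Cfsg.Agent.Rcs.Bas

/-! S3860: first consequences of `Hyp`. -/

set_option autoImplicit false
set_option linter.unusedSectionVars false

namespace Cfsg.Agent.Rcs

open Subgroup Cfsg.Agent.PLocal.CF

variable {G : Type*} [Group G] [Finite G] {c : ℕ}

theorem hy_mul {T H : Subgroup G} (h : T ≤ H) : Nat.card T * T.relIndex H = Nat.card H := by
  rw [← Nat.card_congr (subgroupOfEquivOfLe h).toEquiv]; exact card_mul_index _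

theorem hy_dvd {T H : Subgroup G} (h : Syl 2 T H) {k : ℕ} (hk : 2 ^ k ∣ Nat.card H) :
    2 ^ k ∣ Nat.card T :=
  (Nat.Coprime.pow_left k (Nat.prime_two.coprime_iff_not_dvd.2 h.nd)).dvd_of_dvd_mul_right
    (by rwa [hy_mul h.le])

theorem hy_card {T H : Subgroup G} (h : Syl 2 T H) (h1 : 2 ^ c ∣ Nat.card H)
    (h2 : ¬ 2 ^ (c + 1) ∣ Nat.card H) : Nat.card T = 2 ^ c := by
  obtain ⟨n, hn⟩ := h.pg.exists_card_eq
  have a := hy_dvd h h1
  have b := mt (dvd_trans · (card_dvd_of_le h.le)) h2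
  rw [hn, Nat.pow_dvd_pow_iff_le_right one_lt_two] at a b
  rw [hn, show n = c by omega]

theorem hy_syl {T H : Subgroup G} (h : T ≤ H) (h1 : Nat.card T = 2 ^ c)
    (h2 : ¬ 2 ^ (c + 1) ∣ Nat.card H) : Syl 2 T H :=
  ⟨h, .of_card h1, fun d => h2 (by rw [← hy_mul h, h1, pow_succ]; exact mul_dvd_mul_left _ d)⟩

theorem hy_nm {s y : G} (h : ∀ n, Commute y n → Commute (s⁻¹ * y * s) n) : s ∈ Nm (C1 y) :=
  mem_normalizer_fintype fun n hn => mem_C1.2 (by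
    simpa [mul_assoc] using (h n (mem_C1.1 hn)).map (MulAut.conj s))

theorem hy_nm_iv {s y : G} (h : Iv s y) : s ∈ Nm (C1 y) :=
  hy_nm fun _ k => (show _ = _ from h) ▸ k.inv_left

theorem hy_not {t x : G} (h : Iv t x) (hx : x ^ 2 ≠ 1) : ¬ Commute x t := fun k => hx (by
  have : t⁻¹ * x * t = x⁻¹ := h
  rwa [mul_assoc, k.eq, inv_mul_cancel_left, eq_inv_iff_mul_eq_one, ← pow_two] at this)

theorem hy_iv {s e : G} (he : e ^ 2 = 1) (h : Commute e s) : Iv s e := by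
  rw [Iv, mul_assoc, h.eq, inv_mul_cancel_left, eq_inv_iff_mul_eq_one, ← pow_two, he]

theorem hy_sq {K : Subgroup G} {t s : G} (hn : t ∈ Nm K) (h2 : t ^ 2 ∈ K) (h : t⁻¹ * s ∈ K) :
    s ^ 2 ∈ K := by
  have := mul_mem (mul_mem h2 ((mem_normalizer_iff''.1 hn _).1 h)) h
  rwa [show t ^ 2 * (t⁻¹ * (t⁻¹ * s) * t) * (t⁻¹ * s) = s ^ 2 by simp only [pow_two]; group] at this

theorem hy_zp {t : G} (h : Two t) : IsPGroup 2 (zpowers t) :=
  isPGroup_of_two fun _ ⟨k, hk⟩ => hk ▸ h.zpow k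

theorem hy_nc {x t : G} (h1 : x ≠ 1) (ho : Odd (orderOf x)) (hx : Iv t x) : x ∉ center G :=
  not_central_of_iv hx (sq_ne_one_of_odd h1 ho)

theorem hy_core {K B : Subgroup G} {x t : G} (h1 : x ≠ 1) (ho : Odd (orderOf x)) (hx : Iv t x)
    (hK : K ≤ C1 x) (hn : t ∈ Nm K) (h2 : t ^ 2 ∈ K) (d1 : 2 ^ c ∣ Nat.card K)
    (d2 : ¬ 2 ^ (c + 1) ∣ Nat.card K) (hB : IsPGroup 2 B) (hBH : B ≤ Sd K t) :
    ∃ P, B ≤ P ∧ (∃ s ∈ P, s ∉ K) ∧ ∀ s ∈ P, s ∉ K → Pr c x s (P ⊓ K) := by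
  obtain ⟨P, p1, p2⟩ := exists_syl hB hBH
  have n : Sd K t ≤ Nm K := sup_le le_normalizer (zpowers_le.2 hn)
  refine ⟨P, p1, ?_, fun s s1 s2 => ?_⟩
  · by_contra! k
    refine d2 ((hy_dvd p2 ?_).trans (card_dvd_of_le k))
    rw [card_Sd hn h2 fun m => hy_not hx (sq_ne_one_of_odd h1 ho) (mem_C1.1 (hK m)), pow_succ']
    exact mul_dvd_mul_left _ d1
  · have m := ((mem_Sd hn h2).1 (p2.le s1)).resolve_left s2
    exact ⟨h1, ho, mul_inv_cancel_left t s ▸ hx.mul_right (mem_C1.1 (hK m)), inf_le_right.trans hK,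
      hy_card (p2.inf_normal le_sup_left n) d1 d2,
      inf_normalizer_le_normalizer_inf ⟨le_normalizer s1, n (p2.le s1)⟩, pow_mem s1 2, hy_sq hn h2 m⟩

/-- upper bound: `|H|₂ ≤ 2^c` for `H ≤ C(y)`, `y` real noncentral. -/
theorem Hyp.ub (h : Hyp G c) {y t : G} (hi : Iv t y) (hy : y ∉ center G) {H : Subgroup G}
    (hH : H ≤ C1 y) : ¬ 2 ^ (c + 1) ∣ Nat.card H := fun d => by
  have := (Nat.prime_two.pow_dvd_iff_le_factorization Nat.card_pos.ne').1 (d.trans (card_dvd_of_le hH))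
  rw [h y t hi hy] at this
  omega

theorem Hyp.dvd (h : Hyp G c) {y t : G} (hi : Iv t y) (hy : y ∉ center G) :
    2 ^ c ∣ Nat.card (C1 y) :=
  (Nat.prime_two.pow_dvd_iff_le_factorization Nat.card_pos.ne').2 (h y t hi hy).ge

theorem hy_mix (h : Hyp G c) {x u t : G} (h1 : x ≠ 1) (ho : Odd (orderOf x)) (hu : Two u)
    (hc : Commute x u) (hx : Iv t x) (hi : Iv t u) : 2 ^ c ∣ Nat.card (C1 x ⊓ C1 u : Subgroup G) := by
  rw [← C1_mul ho hu hc]
  refine h.dvd (hx.mul hi hc) fun k => hy_nc h1 ho hx (mem_center_iff.2 fun g => ?_)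
  have : g ∈ C1 (x * u) := mem_C1.2 (mem_center_iff.1 k g).symm
  rw [C1_mul ho hu hc] at this
  exact (mem_C1.1 this.1).eq.symm

/-- L1: a noncentral involution `e` has no nontrivial odd order element real in `C(e)`.
Proof: `y e` is inverted by `s`, noncentral (`(ye)^2 = y^2 ≠ 1`), `C(ye) = C(y) ⊓ C(e)` (`C1_mul`)
has `2^c ∣ card`; `grow_iv` with `H = C(e)` gives `2^(c+1) ∣ |C(e)|`, against `Hyp.ub` (`Iv 1 e`). -/
theorem Hyp.invol (h : Hyp G c) {e y s : G} (he : e ^ 2 = 1) (hz : e ∉ center G)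
    (hy : Commute e y) (hs : Commute e s) (ho : Odd (orderOf y)) (hi : Iv s y) : y = 1 := by
  by_contra h1
  exact h.ub (hy_iv he hs) hz le_rfl (grow_iv (mem_C1.2 hs) hi (sq_ne_one_of_odd h1 ho)
    (inf_comm (C1 y) _ ▸ hy_mix h h1 ho ⟨1, he⟩ hy.symm hi (hy_iv he hs)))

/-- L2: a real element with `f ^ 4 = 1` has central square.  Proof: if `f^2 = 1` trivial.  Else
`H = C(f^2) ∋ s`, `H ⊓ C(f) = C(f)`, `grow_iv`; so the involution `f^2` is central. -/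
theorem Hyp.sq_central (h : Hyp G c) {f s : G} (hi : Iv s f) (h4 : f ^ 4 = 1) :
    f ^ 2 ∈ center G := by
  by_contra hz
  have h2 : f ^ 2 ≠ 1 := fun e => hz (e ▸ one_mem _)
  have k : (f ^ 2)⁻¹ = f ^ 2 := inv_eq_of_mul_eq_one_right (by rw [← pow_add, h4])
  refine h.ub (hi.pow 2) hz le_rfl (grow_iv (mem_C1.2 ?_) hi h2 ?_)
  · have : s⁻¹ * f ^ 2 * s = (f ^ 2)⁻¹ := hi.pow 2
    rwa [k, mul_assoc, inv_mul_eq_iff_eq_mul] at this
  · rw [inf_eq_right.2 fun g hg => mem_C1.2 ((mem_C1.1 hg).pow_left 2)]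
    exact h.dvd hi (not_central_of_iv hi h2)

section mixed
variable {x u t : G}

/-- L3(b): `x u` is real noncentral and `C(xu) = C(x) ⊓ C(u)`. -/
theorem Hyp.mix_dvd (h : Hyp G c) (h1 : x ≠ 1) (ho : Odd (orderOf x)) (hu : Two u)
    (hc : Commute x u) (hx : Iv t x) (hi : Iv t u) : 2 ^ c ∣ Nat.card (C1 x ⊓ C1 u : Subgroup G) :=
  hy_mix h h1 ho hu hc hx hi

/-- L3(a): an involution commuting with `x` and with an inverter of `x` is central (`Hyp.invol`). -/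
theorem Hyp.mix_invol (h : Hyp G c) (h1 : x ≠ 1) (ho : Odd (orderOf x)) (hu : u ^ 2 = 1)
    (hc : Commute x u) (hx : Iv t x) (hi : Commute u t) : u ∈ center G :=
  by_contra fun hz => h1 (h.invol hu hz hc.symm hi ho hx)

/-- L3(c): if `t` inverts `x` and the 2-element `u ∈ C(x)`, and `s ∈ C(x)` inverts `u`, then
`u ^ 2 = 1` (`mix_dvd`, `grow_iv` with `H = C(x)`, `ub` for `x`). -/
theorem Hyp.mix_iv (h : Hyp G c) (h1 : x ≠ 1) (ho : Odd (orderOf x)) (hu : Two u)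
    (hc : Commute x u) (hx : Iv t x) (hi : Iv t u) {s : G} (hs : Commute x s) (hsu : Iv s u) :
    u ^ 2 = 1 :=
  by_contra fun h2 => h.ub hx (hy_nc h1 ho hx) le_rfl
    (grow_iv (mem_C1.2 hs) hsu h2 (h.mix_dvd h1 ho hu hc hx hi))

/-- L3(d): a 2-element `s ∈ C(x)` with `u^s = u ν`, `ν` central, commutes with `u`.
Proof: `s` normalizes `K = C(x) ⊓ C(u)` (as `C(uν) = C(u)`); if `s ∉ K`, `grow` contradicts `ub`. -/
theorem Hyp.mix_cen (h : Hyp G c) (h1 : x ≠ 1) (ho : Odd (orderOf x)) (hu : Two u)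
    (hc : Commute x u) (hx : Iv t x) (hi : Iv t u) {s : G} (hs : Commute x s) (hs2 : Two s)
    (hsu : ph u s ∈ center G) : Commute u s := by
  by_contra k
  obtain ⟨j, hj⟩ := hs2
  refine h.ub hx (hy_nc h1 ho hx) le_rfl (grow inf_le_left (mem_C1.2 hs)
    (inf_normalizer_le_normalizer_inf ⟨le_normalizer (mem_C1.2 hs), hy_nm fun n hn => ?_⟩)
    (fun m => k (mem_C1.1 m.2)) (hj ▸ one_mem _) (h.mix_dvd h1 ho hu hc hx hi))
  rw [← mul_inv_cancel_left u (s⁻¹ * u * s)]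
  exact hn.mul_left (mem_center_iff.1 hsu n).symm

end mixed

/-- Existence of `Pr` over a given 2-subgroup `U ≤ C(x)` normalized by the 2-element `t`.
Proof: `H = C(x) ⊔ ⟨t⟩` has `C(x)` of index 2; take a Sylow 2-subgroup `P` of `H` containing the
2-group `U ⊔ ⟨t⟩` (`exists_syl`); `T = P ⊓ C(x)` is Sylow in `C(x)` (`Syl.inf_normal`). -/
theorem Hyp.exists_pr (h : Hyp G c) {x t : G} (h1 : x ≠ 1) (ho : Odd (orderOf x)) (hx : Iv t x)
    (ht : Two t) {U : Subgroup G} (hU : IsPGroup 2 U) (hUx : U ≤ C1 x) (hn : t ∈ Nm U) :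
    ∃ T, Pr c x t T ∧ U ≤ T := by
  obtain ⟨P, p1, -, p2⟩ := hy_core h1 ho hx le_rfl (hy_nm_iv hx) (mem_C1.2 hx.sq_comm)
    (h.dvd hx (hy_nc h1 ho hx)) (h.ub hx (hy_nc h1 ho hx) le_rfl)
    (hU.to_sup_of_normal_left' (hy_zp ht) (zpowers_le.2 hn)) (sup_le_sup_right hUx _)
  exact ⟨_, p2 t (p1 (mem_sup_right (mem_zpowers t)))
    (mt mem_C1.1 (hy_not hx (sq_ne_one_of_odd h1 ho))), le_inf (le_sup_left.trans p1) hUx⟩

/-- Same without the normalizing assumption, changing the inverter: take a Sylow `P` of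
`H = C(x) ⊔ ⟨t⟩` containing `U`; it is not inside `C(x)` (index 2), pick `t' ∈ P \ C(x)`. -/
theorem Hyp.exists_pr' (h : Hyp G c) {x t : G} (h1 : x ≠ 1) (ho : Odd (orderOf x)) (hx : Iv t x)
    {U : Subgroup G} (hU : IsPGroup 2 U) (hUx : U ≤ C1 x) :
    ∃ t' T, Pr c x t' T ∧ U ≤ T := by
  obtain ⟨P, p1, ⟨s, s1, s2⟩, p2⟩ := hy_core h1 ho hx le_rfl (hy_nm_iv hx) (mem_C1.2 hx.sq_comm)
    (h.dvd hx (hy_nc h1 ho hx)) (h.ub hx (hy_nc h1 ho hx) le_rfl) hU (hUx.trans le_sup_left)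
  exact ⟨s, _, p2 s s1 s2, le_inf p1 hUx⟩

/-- Version inside `C(x) ⊓ C(u)` for a mixed real pair: as `exists_pr` with
`H = (C(x) ⊓ C(u)) ⊔ ⟨t⟩`; `|T| = 2^c` by `mix_dvd` and `ub`; `u ∈ T` since `u` is a central
2-element of `C(x) ⊓ C(u)`. -/
theorem Hyp.exists_pr_mix (h : Hyp G c) {x u t : G} (h1 : x ≠ 1) (ho : Odd (orderOf x))
    (hu : Two u) (hc : Commute x u) (hx : Iv t x) (hi : Iv t u) (ht : Two t) :
    ∃ T, Pr c x t T ∧ u ∈ T ∧ T ≤ C1 u := by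
  have m : u ∈ C1 x ⊓ C1 u := ⟨mem_C1.2 hc, mem_C1.2 rfl⟩
  have n : t ∈ Nm (zpowers u) := mem_normalizer_fintype (by
    rintro _ ⟨k, rfl⟩
    have : t * u ^ k * t⁻¹ = (u ^ k)⁻¹ := by simpa [Iv] using hi.symm'.zpow k
    exact this.symm ▸ inv_mem (zpow_mem_zpowers u k))
  obtain ⟨P, p1, -, p2⟩ := hy_core h1 ho hx inf_le_left
    (inf_normalizer_le_normalizer_inf ⟨hy_nm_iv hx, hy_nm_iv hi⟩)
    ⟨mem_C1.2 hx.sq_comm, mem_C1.2 hi.sq_comm⟩ (h.mix_dvd h1 ho hu hc hx hi)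
    (h.ub hx (hy_nc h1 ho hx) inf_le_left)
    ((hy_zp hu).to_sup_of_normal_left' (hy_zp ht) (zpowers_le.2 n))
    (sup_le_sup_right (zpowers_le.2 m) _)
  exact ⟨_, p2 t (p1 (mem_sup_right (mem_zpowers t)))
    fun k => hy_not hx (sq_ne_one_of_odd h1 ho) (mem_C1.1 k.1),
    ⟨p1 (mem_sup_left (mem_zpowers u)), m⟩, inf_le_right.trans inf_le_right⟩

namespace Pr
variable {x t : G} {T : Subgroup G}

theorem pg (p : Pr c x t T) : IsPGroup 2 T := .of_card p.card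

theorem two (p : Pr c x t T) : Two t := by
  obtain ⟨k, hk⟩ := Two.of_mem p.pg p.sq
  exact ⟨k + 1, by rw [pow_succ', pow_mul, hk]⟩

theorem notMem (p : Pr c x t T) : t ∉ T := fun k =>
  hy_not p.iv (sq_ne_one_of_odd p.ne p.odd) (mem_C1.1 (p.le k))

theorem syl (h : Hyp G c) (p : Pr c x t T) : Syl 2 T (C1 x) :=
  hy_syl p.le p.card (h.ub p.iv (hy_nc p.ne p.odd p.iv) le_rfl)

/-- a 2-element normalizing `T` and centralizing a real noncentral `y` centralized by `T` lies in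
`T` (`grow` with `K = T`, `H = C(y)`). -/
theorem mem_of (h : Hyp G c) (p : Pr c x t T) {y s g : G} (hi : Iv s y) (hy : y ∉ center G)
    (hT : T ≤ C1 y) (hg : Commute y g) (hn : g ∈ Nm T) (h2 : Two g) : g ∈ T := by
  obtain ⟨j, hj⟩ := h2
  exact by_contra fun k => h.ub hi hy le_rfl
    (grow hT (mem_C1.2 hg) hn k (hj ▸ one_mem _) (p.card ▸ dvd_rfl))

/-- real 2-elements centralizing `T` lie in `T` (central: `mem_of` with `y = x`; noncentral:
`mem_of` with `y = g`). -/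
theorem mem_of_real (h : Hyp G c) (p : Pr c x t T) {g s : G} (hi : Iv s g) (h2 : Two g)
    (hT : T ≤ C1 g) : g ∈ T := by
  have n : g ∈ Nm T := mem_normalizer_fintype fun a ha => by
    rwa [(mem_C1.1 (hT ha)).eq, mul_inv_cancel_right]
  by_cases k : g ∈ center G
  · exact p.mem_of h p.iv (hy_nc p.ne p.odd p.iv) p.le (mem_center_iff.1 k x) n h2
  · exact p.mem_of h hi k hT rfl n h2

theorem card_sd (p : Pr c x t T) : Nat.card (Sd T t) = 2 ^ (c + 1) := by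
  rw [card_Sd p.nm p.sq p.notMem, p.card, pow_succ']

theorem pg_sd (p : Pr c x t T) : IsPGroup 2 (Sd T t) := .of_card p.card_sd

/-- elements of `T* \ T` invert `x`. -/
theorem iv_of (p : Pr c x t T) {s : G} (hs : s ∈ Sd T t) (hsT : s ∉ T) : Iv s x :=
  mul_inv_cancel_left t s ▸
    p.iv.mul_right (mem_C1.1 (p.le (((mem_Sd p.nm p.sq).1 hs).resolve_left hsT)))

theorem mem_iff (p : Pr c x t T) {s : G} (hs : s ∈ Sd T t) : s ∈ T ↔ Commute x s :=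
  ⟨fun k => mem_C1.1 (p.le k), fun k => by_contra fun n =>
    hy_not (p.iv_of hs n) (sq_ne_one_of_odd p.ne p.odd) k⟩

/-- change of inverter inside `T*`. -/
theorem swap (p : Pr c x t T) {s : G} (hs : s ∈ Sd T t) (hsT : s ∉ T) :
    Pr c x s T ∧ Sd T s = Sd T t := by
  have m := ((mem_Sd p.nm p.sq).1 hs).resolve_left hsT
  refine ⟨⟨p.ne, p.odd, p.iv_of hs hsT, p.le, p.card,
    sup_le le_normalizer (zpowers_le.2 p.nm) hs, hy_sq p.nm p.sq m⟩,
    le_antisymm (sup_le le_sup_left (zpowers_le.2 hs)) (sup_le le_sup_left (zpowers_le.2 ?_))⟩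
  simpa using mul_mem (mem_sup_right (S := T) (mem_zpowers s)) (inv_mem (mem_sup_left m))

theorem conj (p : Pr c x t T) (g : G) :
    Pr c (g * x * g⁻¹) (g * t * g⁻¹) (cj g T) :=
  ⟨by simpa using p.ne, (MulAut.conj g).orderOf_eq x ▸ p.odd, by simpa using p.iv.conj g⁻¹,
    FGS.mapConj_le_iff'.2 fun a ha => mem_C1.2 ((mem_C1.1 (p.le ha)).map (MulAut.conj g)),
    (FGS.card_mapConj T g).trans p.card, (FGS.normalizer_mapConj T g).ge ⟨t, p.nm, rfl⟩,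
    t ^ 2, p.sq, conj_pow.symm⟩

theorem syl_sd (p : Pr c x t T) (ha : ¬ 2 ^ (c + 2) ∣ Nat.card G) : Syl 2 (Sd T t) ⊤ :=
  hy_syl le_top p.card_sd (by rwa [card_top])

end Pr

end Cfsg.Agent.Rcs
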