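import Mathlib
import Cfsg.Agent.Rcs.Defs
import Cfsg.Agent.Rcs.Hy

/-! S3860: the `ph` calculus, Y2, bound, the set `SS`. -/

set_option autoImplicit false
set_option linter.unusedSectionVars false

namespace Cfsg.Agent.Rcs

open Subgroup Cfsg.Agent.PLocal.CF

variable {G : Type*} [Group G] [Finite G] {c : ℕ}

theorem conj_eq_ph (f g : G) : g⁻¹ * f * g = f * ph f g := by
  simp only [ph]; group

theorem ph_eq_one {f g : G} : ph f g = 1 ↔ Commute f g := by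
  rw [ph, inv_mul_eq_one, mul_assoc, eq_inv_mul_iff_mul_eq]; exact eq_comm

theorem ph_one (f : G) : ph f 1 = 1 := by
  simp [ph]

/-- `ph f (g * k) = ph f k * (ph f g)^k`. -/
theorem ph_mul' (f g k : G) : ph f (g * k) = ph f k * (k⁻¹ * ph f g * k) := by
  simp only [ph]; group

theorem ph_mul {f g : G} (hg : ph f g ∈ center G) (k : G) : ph f (g * k) = ph f g * ph f k := by
  rw [ph_mul', mul_assoc k⁻¹, ← mem_center_iff.1 hg k, inv_mul_cancel_left, mem_center_iff.1 hg]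

/-- `ph (f * u) g = u⁻¹ * ph f g * u * ph u g`. -/
theorem ph_mul_left (f u g : G) : ph (f * u) g = u⁻¹ * ph f g * u * ph u g := by
  simp only [ph]; group

theorem ph_swap (f g : G) : ph f g = (ph g f)⁻¹ := by
  simp only [ph]; group

theorem ph_conj (f g k : G) : ph (k⁻¹ * f * k) (k⁻¹ * g * k) = k⁻¹ * ph f g * k := by
  simp only [ph]; group

theorem iv_iff_ph {t f : G} : Iv t f ↔ ph f t = (f ^ 2)⁻¹ := by
  rw [Iv, ph, inv_mul_eq_iff_eq_mul, show f * (f ^ 2)⁻¹ = f⁻¹ by group]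

/-- `f^g = f ν` with `ν` commuting with `f` and `g` commuting with `f ^ 2`: then `ν ^ 2 = 1`. -/
theorem ph_sq {f g : G} (h : Commute f (ph f g)) (h2 : Commute (f ^ 2) g) : ph f g ^ 2 = 1 := by
  have : (g⁻¹ * f * g) ^ 2 = f ^ 2 := by
    calc _ = g⁻¹ * (f ^ 2 * g) := by simp only [pow_two]; group
      _ = _ := by rw [h2.eq, inv_mul_cancel_left]
  rwa [conj_eq_ph, h.mul_pow, mul_eq_left] at this

theorem pq_odd {g : G} (h : Two g) {n : ℕ} (hn : Odd n) (e : g ^ n = 1) : g = 1 :=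
  h.eq_one (hn.of_dvd_nat (orderOf_dvd_of_pow_eq_one e))

theorem pq_pow {f g : G} (hc : Commute g (ph f g)) (n : ℕ) : ph f (g ^ n) = ph f g ^ n := by
  induction n with
  | zero => simp [ph]
  | succ n ih =>
    rw [pow_succ, ph_mul', ih, mul_assoc g⁻¹, ← (hc.pow_right n).eq, inv_mul_cancel_left, pow_succ']

/-- `ν = ph f g` commutes with `g`: `f^(g^n) = f ν^n`; so `g` of odd order and `ν` a 2-element force
`ν = 1`. -/
theorem commute_of_odd {f g : G} (hc : Commute g (ph f g)) (h2 : Two (ph f g))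
    (ho : Odd (orderOf g)) : Commute f g := ph_eq_one.1 (pq_odd h2 ho (by rw [← pq_pow hc, pow_orderOf_eq_one, ph_one]))

theorem ph_mem_of_normal {L : Subgroup G} [L.Normal] {f : G} (hf : f ∈ L) (g : G) : ph f g ∈ L := mul_mem (inv_mem hf) (Normal.conj_mem' inferInstance f hf g)

theorem ph_mem_of_normal' {L : Subgroup G} [L.Normal] (f : G) {g : G} (hg : g ∈ L) : ph f g ∈ L := by
  rw [ph_swap]; exact inv_mem (ph_mem_of_normal hg f)

theorem ph_mem_of_nm {T : Subgroup G} {f g : G} (hf : f ∈ T) (hg : g ∈ Nm T) : ph f g ∈ T := mul_mem (inv_mem hf) ((mem_normalizer_iff''.1 hg f).1 hf)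

theorem pq_inv {f g : G} (hg : ph f g ∈ center G) : ph f g⁻¹ = (ph f g)⁻¹ :=
  eq_inv_of_mul_eq_one_right (by rw [← ph_mul hg, mul_inv_cancel, ph_one])

/-- the elements moving `f` by an element of the central subgroup `Y`. -/
def pqS (f : G) {Y : Subgroup G} (hY : Y ≤ center G) : Subgroup G where
  carrier := {m | ph f m ∈ Y}
  mul_mem' := fun {a b} ha hb => by
    show ph f (a * b) ∈ Y
    rw [ph_mul (hY ha)]; exact mul_mem ha hb
  one_mem' := by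
    show ph f 1 ∈ Y
    rw [ph_one]; exact one_mem _
  inv_mem' := fun {a} ha => by
    show ph f a⁻¹ ∈ Y
    rw [pq_inv (hY ha)]; exact inv_mem ha

theorem pq_nmS {f s : G} {Y : Subgroup G} (hY : Y ≤ center G) (hs : ph f s ∈ center G) :
    s ∈ Nm (pqS f hY) :=
  mem_normalizer_fintype fun n hn => by
    have hn' : ph f n ∈ Y := hn
    show ph f (s * n * s⁻¹) ∈ Y
    rwa [mul_assoc, ph_mul hs, ph_mul (hY hn'), pq_inv hs, ← mul_assoc, mem_center_iff.1 (hY hn'),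
      mul_inv_cancel_right]

theorem pq_nm {f s : G} (hs : ph f s ∈ center G) : s ∈ Nm (C1 f) :=
  hy_nm fun n hn => by
    rw [conj_eq_ph]; exact hn.mul_left (mem_center_iff.1 hs n).symm

theorem pq_sq {f s : G} (hs : ph f s ∈ center G) (h2 : ph f s ^ 2 = 1) : ph f (s ^ 2 ^ 1) = 1 := by
  rw [pow_one, pow_two, ph_mul hs, ← pow_two, h2]

theorem pq_zp {a b : G} (h2 : a ^ 2 = 1) (h : b ∈ zpowers a) : b = 1 ∨ b = a := by
  obtain ⟨n, rfl⟩ := mem_zpowers_iff.1 h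
  have : a ^ (2 : ℤ) = 1 := by exact_mod_cast h2
  obtain ⟨m, rfl | rfl⟩ := Int.even_or_odd' n <;> simp [zpow_add, zpow_mul, this]

/-- Y2.  `a = 1`: a real noncentral `f` with central square is moved by at most one central
element.  Proof: `ph f g`, `ph f k` have square 1 (`ph_sq`).  If they are distinct and `≠ 1`:
`K₀ = C(f)`, `K₁ = {m | ph f m ∈ ⟨ph f g⟩}` (a subgroup, `ph_mul`), `grow K₀ ≤ K₁` with `s = g`, then
`grow K₁ ≤ ⊤` with `s = k`; `Hyp.dvd` gives `2^(c+2) ∣ |G|`. -/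
theorem Hyp.y2 (h : Hyp G c) (ha : ¬ 2 ^ (c + 2) ∣ Nat.card G) {f t g k : G} (hi : Iv t f)
    (hf : f ∉ center G) (h2 : f ^ 2 ∈ center G) (hg : ph f g ∈ center G) (hk : ph f k ∈ center G) :
    ph f g = 1 ∨ ph f k = 1 ∨ ph f g = ph f k := by
  by_contra! n
  obtain ⟨n1, n2, n3⟩ := n
  have q : ∀ s, ph f s ∈ center G → ph f s ^ 2 = 1 := fun s hs =>
    ph_sq (mem_center_iff.1 hs f) (mem_center_iff.1 h2 s).symm
  have hY : zpowers (ph f g) ≤ center G := zpowers_le.2 hg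
  have l : C1 f ≤ pqS f hY := fun m hm => by
    show ph f m ∈ zpowers (ph f g)
    rw [ph_eq_one.2 (mem_C1.1 hm)]; exact one_mem _
  have a := grow l (s := g) (mem_zpowers _) (pq_nm hg) (fun m => n1 (ph_eq_one.2 (mem_C1.1 m)))
    (mem_C1.2 (ph_eq_one.1 (pq_sq hg (q g hg)))) (h.dvd hi hf)
  have b := grow (H := ⊤) le_top (mem_top k) (pq_nmS hY hk)
    (fun m => (pq_zp (q g hg) m).elim n2 fun e => n3 e.symm)
    (l (mem_C1.2 (ph_eq_one.1 (pq_sq hk (q k hk))))) a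
  exact ha (by rwa [card_top] at b)

theorem pq_im {f : G} {A : Subgroup G} (hA : ∀ s ∈ A, ph f s ∈ center G) :
    ∃ Y : Subgroup G, Y ≤ center G ∧ (∀ ν, ν ∈ Y ↔ ∃ s ∈ A, ph f s = ν) ∧
      Nat.card Y * Nat.card (A ⊓ C1 f : Subgroup G) = Nat.card A := by
  let φ : A →* G := MonoidHom.mk' (fun s => ph f s) fun a b => ph_mul (hA a a.2) b
  have k : φ.ker = (A ⊓ C1 f).subgroupOf A := by
    ext s
    rw [MonoidHom.mem_ker, mem_subgroupOf, mem_inf, mem_C1, ← ph_eq_one]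
    exact ⟨fun e => ⟨s.2, e⟩, fun e => e.2⟩
  refine ⟨φ.range, ?_, fun ν => ⟨?_, ?_⟩, ?_⟩
  · rintro _ ⟨s, rfl⟩; exact hA s s.2
  · rintro ⟨s, rfl⟩; exact ⟨s, s.2, rfl⟩
  · rintro ⟨s, hs, rfl⟩; exact ⟨⟨s, hs⟩, rfl⟩
  · rw [← index_ker, ← Nat.card_congr (subgroupOfEquivOfLe (inf_le_left : A ⊓ C1 f ≤ A)).toEquiv, ← k]
    exact index_mul_card _

/-- `ph f : S →* K` has kernel `S ⊓ C(f)`, a 2-group of order `≤ 2 ^ c` (`Hyp.ub`). -/
theorem Hyp.bound (h : Hyp G c) {f t : G} (hi : Iv t f) (hf : f ∉ center G) {S K : Subgroup G}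
    (hS : IsPGroup 2 S) (hK : K ≤ center G) (hph : ∀ s ∈ S, ph f s ∈ K) :
    Nat.card S ≤ 2 ^ c * Nat.card K := by
  obtain ⟨Y, -, h1, h2⟩ := pq_im (f := f) (A := S) fun s hs => hK (hph s hs)
  have l : Y ≤ K := fun ν hν => by
    obtain ⟨s, hs, rfl⟩ := (h1 ν).1 hν; exact hph s hs
  obtain ⟨n, hn⟩ := (hS.to_le (inf_le_left : S ⊓ C1 f ≤ S)).exists_card_eq
  have u := h.ub hi hf (inf_le_right : S ⊓ C1 f ≤ C1 f)
  rw [hn, Nat.pow_dvd_pow_iff_le_right one_lt_two] at u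
  rw [← h2, hn, mul_comm]
  exact Nat.mul_le_mul (Nat.pow_le_pow_right two_pos (by omega)) (card_le_of_le l)

/-- image of `ph f` on a subgroup `A` where it takes central values: a subgroup `Y ≤ Z(G)` with
`|Y| |A ⊓ C(f)| = |A|`. -/
theorem exists_im {f : G} {A : Subgroup G} (hA : ∀ s ∈ A, ph f s ∈ center G) :
    ∃ Y : Subgroup G, Y ≤ center G ∧ (∀ ν, ν ∈ Y ↔ ∃ s ∈ A, ph f s = ν) ∧
      Nat.card Y * Nat.card (A ⊓ C1 f : Subgroup G) = Nat.card A := pq_im hA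

/-- If the 2-part of `|C(u)|` is the full 2-part `2^(k)` of `|G|`... precisely: `S ≤ C(u)`,
`Syl 2 S ⊤`, `ph u g` central of square 1; then `ph u g = 1` (`grow` with `K = C(u)`, `H = ⊤`). -/
theorem ph_eq_one_of_syl {S : Subgroup G} (hS : Syl 2 S ⊤) {u g : G} (hu : S ≤ C1 u)
    (hg : ph u g ∈ center G) (h2 : ph u g ^ 2 = 1) : ph u g = 1 := by
  by_contra n
  obtain ⟨k, hk⟩ := hS.pg.exists_card_eq
  have a := hy_dvd hS (grow (H := ⊤) le_top (mem_top g) (pq_nm hg)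
    (fun m => n (ph_eq_one.2 (mem_C1.1 m))) (mem_C1.2 (ph_eq_one.1 (pq_sq hg h2)))
    (hk ▸ card_dvd_of_le hu))
  rw [hk, Nat.pow_dvd_pow_iff_le_right one_lt_two] at a
  omega

section L
variable {L : Subgroup G} [L.Normal]

theorem Zl_le : Zl L ≤ L := inf_le_left

theorem comm_Zl {z l : G} (hz : z ∈ Zl L) (hl : l ∈ L) : Commute l z := (mem_Zl.1 hz).2 l hl

theorem mem_Zl_of_center {z : G} (hz : z ∈ L) (hc : z ∈ center G) : z ∈ Zl L :=   mem_Zl.2 ⟨hz, fun l _ => mem_center_iff.1 hc l⟩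

theorem C1_le_Np (f : G) : C1 f ≤ Np L f := fun g hg => by
  rw [mem_Np, ph_eq_one.2 (mem_C1.1 hg)]; exact one_mem _

theorem Zl_le_Np (f : G) : Zl L ≤ Np L f := fun _ hg => mem_Np.2 (ph_mem_of_normal' f hg)

theorem Np_mul {f ν : G} (hν : ν ∈ Zl L) : Np L (f * ν) = Np L f := by
  have : QuotientGroup.mk' (Zl L) ν = 1 := (QuotientGroup.eq_one_iff _).2 hν
  rw [Np, Np, map_mul, this, mul_one]

theorem pq_cj {N : Subgroup G} [hN : N.Normal] {a k : G} : k⁻¹ * a * k ∈ N ↔ a ∈ N := by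
  rw [hN.mem_comm_iff, mul_inv_cancel_left]

theorem mem_Np_conj {f g k : G} : k⁻¹ * g * k ∈ Np L (k⁻¹ * f * k) ↔ g ∈ Np L f := by
  rw [mem_Np, mem_Np, ph_conj, pq_cj]

theorem mem_Np_comm {f g : G} : g ∈ Np L f ↔ f ∈ Np L g := by
  rw [mem_Np, mem_Np, ph_swap, inv_mem_iff]

theorem pq_cjsq (f g : G) : (g⁻¹ * f * g) ^ 2 = g⁻¹ * f ^ 2 * g := by
  simp only [pow_two]; group

/-- conjugates under `L` of an element with square in `Z(L)` have the same square. -/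
theorem sq_conj {f g : G} (h2 : f ^ 2 ∈ Zl L) (hg : g ∈ L) : (g⁻¹ * f * g) ^ 2 = f ^ 2 := by
  rw [pq_cjsq, mul_assoc, ← (comm_Zl h2 hg).eq, inv_mul_cancel_left]

/-- `Iv i (ph i g)` for `g ∈ L`, `i ^ 2 ∈ Z(L)` (`iv_of_sq_eq`, `sq_conj`). -/
theorem iv_ph_self {i g : G} (h2 : i ^ 2 ∈ Zl L) (hg : g ∈ L) : Iv i (ph i g) :=   iv_of_sq_eq (sq_conj h2 hg)

/-- an odd order `x ∈ L` inverted modulo the 2-group `Z(L)` is inverted:
`s⁻¹ x s = x⁻¹ ν`, `ν` commutes with `x`, both sides of odd order. -/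
theorem St.iv_of_mod (h : St c L) {x s : G} (hx : x ∈ L) (ho : Odd (orderOf x))
    (hs : x * (s⁻¹ * x * s) ∈ Zl L) : Iv s x := by
  have k : Commute x (s⁻¹ * x * s) := by
    simpa using (Commute.refl x).inv_right.mul_right (comm_Zl hs hx)
  have : x * (s⁻¹ * x * s) = 1 := pq_odd (h.zp _ hs) ho (by
    have := @conj_pow _ _ (orderOf x) s⁻¹ x
    rw [inv_inv] at this
    rw [k.mul_pow, this, pow_orderOf_eq_one]; simp)
  exact eq_inv_of_mul_eq_one_right this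

theorem St.pg (h : St c L) : IsPGroup 2 (Zl L) := isPGroup_of_two h.zp

theorem St.Zl_le_syl (h : St c L) {S H : Subgroup G} (hS : Syl 2 S H) (hH : Zl L ≤ H) : Zl L ≤ S :=   hS.le_of_nm h.pg hH le_normalizer_of_normal

theorem St.Zl_le_pr (h : St c L) {x t : G} {T : Subgroup G} (p : Pr c x t T) (hx : x ∈ L) :
    Zl L ≤ T :=   h.Zl_le_syl (p.syl h.hyp) fun _ hz => mem_C1.2 (comm_Zl hz hx)

theorem St.two_of_pow (h : St c L) {u : G} {k : ℕ} (hu : u ^ 2 ^ k ∈ Zl L) : Two u := by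
  obtain ⟨j, hj⟩ := h.zp _ hu
  exact ⟨k + j, by rw [pow_add, pow_mul, hj]⟩

/-- for `f ∈ L` whose square commutes with `g ∈ Np L f`: `ph f g` is central of square 1. -/
theorem St.ph_central (h : St c L) {f g : G} (hf : f ∈ L) (h2 : Commute (f ^ 2) g) (hg : g ∈ Np L f) :
    ph f g ∈ center G ∧ ph f g ^ 2 = 1 :=   have e := ph_sq (comm_Zl (mem_Np.1 hg) hf) h2
  ⟨h.z1 _ (mem_Np.1 hg) e, e⟩

/-- odd order elements of `Np L f` commute with `f` (`commute_of_odd`). -/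
theorem St.comm_of_odd (h : St c L) {f g : G} (hf : f ∈ L) (h2 : f ^ 2 ∈ center G) (hg : g ∈ Np L f)
    (ho : Odd (orderOf g)) : Commute f g :=   commute_of_odd (mem_center_iff.1 (h.ph_central hf (mem_center_iff.1 h2 g).symm hg).1 g)
    (h.zp _ (mem_Np.1 hg)) ho

theorem SS.four {f : G} (hf : SS L f) : f ^ 4 = 1 := by
  obtain ⟨-, -, h2, i, hi, -, iv⟩ := hf
  have : i⁻¹ * f ^ 2 * i = (f ^ 2)⁻¹ := iv.pow 2
  rwa [mul_assoc, ← (comm_Zl h2 hi).eq, inv_mul_cancel_left, eq_inv_iff_mul_eq_one, ← pow_add] at this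

theorem SS.two {f : G} (hf : SS L f) : Two f := ⟨2, hf.four⟩

theorem SS.sq (h : St c L) {f : G} (hf : SS L f) : f ^ 2 ∈ center G :=   h.z1 _ hf.2.2.1 (by rw [← pow_mul]; exact hf.four)

theorem SS.nc {f : G} (hf : SS L f) : f ∉ center G := fun k => hf.2.1 (mem_Zl_of_center hf.1 k)

theorem SS.conj {f : G} (hf : SS L f) (g : G) : SS L (g⁻¹ * f * g) := by
  obtain ⟨h0, h1, h2, i, hi, i2, iv⟩ := hf
  refine ⟨pq_cj.2 h0, mt pq_cj.1 h1, ?_, _, pq_cj.2 hi, ?_, iv.conj g⟩ <;> rwa [pq_cjsq, pq_cj]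

theorem pq_ps {Z : Subgroup G} (j : ℕ) : ∀ u : G, u ^ 2 ^ j ∈ Z → u ∉ Z →
    ∃ k : ℕ, u ^ k ∉ Z ∧ (u ^ k) ^ 2 ∈ Z := by
  induction j with
  | zero => exact fun u a b => (b (by simpa using a)).elim
  | succ j ih =>
    intro u a b
    by_cases e : u ^ 2 ∈ Z
    · exact ⟨1, by rwa [pow_one], by rwa [pow_one]⟩
    · obtain ⟨k, hk⟩ := ih (u ^ 2) (by rwa [← pow_mul, ← pow_succ']) e
      exact ⟨2 * k, by rwa [pow_mul]⟩

/-- K1: a 2-element of `L \ Z(L)` inverted by `i ∈ L`, `i ^ 2 ∈ Z(L)`, has a power in `SS`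
(the last `f ^ 2 ^ j ∉ Z(L)`). -/
theorem ss_of_iv {i f : G} (hi : i ∈ L) (h2 : i ^ 2 ∈ Zl L) (hf : f ∈ L) (hZ : f ∉ Zl L) (ht : Two f)
    (hiv : Iv i f) : ∃ k : ℕ, SS L (f ^ k) := by
  obtain ⟨j, hj⟩ := ht
  obtain ⟨k, a, b⟩ := pq_ps j f (hj ▸ one_mem _) hZ
  exact ⟨k, pow_mem hf k, a, b, i, hi, h2, hiv.pow k⟩

/-- a 2-element outside a normal subgroup `Z` has a power outside `Z` with square in `Z`. -/
theorem Two.exists_pow_sq {u : G} (h : Two u) {Z : Subgroup G} (hu : u ∉ Z) :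
    ∃ k : ℕ, u ^ k ∉ Z ∧ (u ^ k) ^ 2 ∈ Z := by
  obtain ⟨j, hj⟩ := h
  exact pq_ps j u (hj ▸ one_mem _) hu

end L

end Cfsg.Agent.Rcs
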