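import Mathlib
import Cfsg.Agent.Rcs.Defs
import Cfsg.Agent.Rcs.Ph
import Cfsg.Agent.Grp.PChain
import Cfsg.Agent.Grp.UniqueOrderP

/-! S3860: a normal subgroup of a 2-group without invariant four-group has a cyclic subgroup of index `≤ 2`. Pure. -/

set_option autoImplicit false
set_option linter.unusedSectionVars false

namespace Cfsg.Agent.Rcs

open Subgroup Cfsg.Agent.PLocal.CF
open scoped commutatorElement

variable {G : Type*} [Group G] [Finite G] {c : ℕ}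

section
variable {X : Type*} [Group X] [Finite X]

namespace EC

theorem ne2 {w : X} (h : orderOf w = 4) : w ^ 2 ≠ 1 := fun e => by
  have := orderOf_dvd_of_pow_eq_one e
  rw [h] at this
  exact absurd this (by decide)

theorem cm {z : X} (h : z ∈ center X) (g : X) : Commute z g := (mem_center_iff.1 h g).symm

theorem uq {a u v : X} (hu : u ∈ zpowers a) (hv : v ∈ zpowers a) (u2 : u ^ 2 = 1) (v2 : v ^ 2 = 1)
    (u1 : u ≠ 1) (v1 : v ≠ 1) : u = v := by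
  have key : ∀ i : ℤ, (a ^ i) ^ 2 = 1 → a ^ i ≠ 1 → ∃ k : ℤ, i * 2 = orderOf a * (2 * k + 1) := by
    intro i h1 h2
    rw [← zpow_natCast, ← zpow_mul, ← orderOf_dvd_iff_zpow_eq_one] at h1
    obtain ⟨k, hk⟩ := h1
    obtain ⟨l, rfl | rfl⟩ := Int.even_or_odd' k
    · exact absurd (orderOf_dvd_iff_zpow_eq_one.1 ⟨l, by push_cast at hk; linarith⟩) h2
    · exact ⟨l, hk⟩
  obtain ⟨i, rfl⟩ := hu
  obtain ⟨j, rfl⟩ := hv
  obtain ⟨k, hk⟩ := key i u2 u1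
  obtain ⟨l, hl⟩ := key j v2 v1
  exact zpow_eq_zpow_iff_modEq.2 (Int.modEq_iff_dvd.2 ⟨l - k, by linarith⟩)

end EC

/-- in a 2-group, `M K / K` meets the centre of `X / K`. -/
theorem exists_cen (hX : IsPGroup 2 X) {M K : Subgroup X} [M.Normal] [K.Normal] (h : ¬ M ≤ K) :
    ∃ g ∈ M, g ∉ K ∧ ∀ s, ph g s ∈ K := by
  have := hX.isNilpotent
  obtain ⟨u, h1, h2, h3⟩ := Grp.PChain.exists_central_mod M K h
  refine ⟨u, h1, h2, fun s => ?_⟩
  have := (pq_cj (k := u)).2 (inv_mem (h3 s⁻¹))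
  rwa [show u⁻¹ * ⁅u, s⁻¹⁆⁻¹ * u = ph u s by rw [commutatorElement_def, ph]; group] at this

/-- a maximal `X`-normal abelian subgroup of `N` is self-centralizing in `N` (`exists_cen` with
`M = N ⊓ Ce A`, `K = A`; `zpowers g ⊔ A` is abelian and normal). -/
theorem exists_max_ab (hX : IsPGroup 2 X) (N : Subgroup X) [N.Normal] :
    ∃ A : Subgroup X, A.Normal ∧ A ≤ N ∧ ∀ g ∈ N, g ∈ A ↔ g ∈ Ce A := by
  have := hX.isNilpotent
  obtain ⟨B, ⟨h1, h2, h3⟩, hmax⟩ := Set.Finite.exists_maximal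
    (s := {B : Subgroup X | B.Normal ∧ IsMulCommutative B ∧ B ≤ N}) (Set.toFinite _)
    ⟨⊥, inferInstance, inferInstance, bot_le⟩
  refine ⟨B, h1, h3, fun g hg => ⟨fun e => le_centralizer B e, fun e => by_contra fun c => ?_⟩⟩
  obtain ⟨u, k1, k2, k3⟩ := Grp.PChain.exists_central_mod (N ⊓ Ce B) B fun l => c (l ⟨hg, e⟩)
  exact k2 (hmax (y := B ⊔ zpowers u) ⟨Grp.PChain.normal_sup_zpowers k3,
    Grp.PChain.isMulCommutative_sup_zpowers h2 k1.2, sup_le h3 (zpowers_le.2 k1.1)⟩ le_sup_left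
    (mem_sup_right (mem_zpowers u)))

/-- an abelian 2-subgroup with at most one involution is cyclic (same as
`isCyclic_of_unique_inv` in Rcs/CC, landed or about to be; import it or reprove). -/
theorem eq_zpowers (hX : IsPGroup 2 X) {A : Subgroup X} (hA : A ≤ Ce A) {z : X}
    (h : ∀ e ∈ A, e ^ 2 = 1 → e = 1 ∨ e = z) : ∃ a, A = zpowers a := by
  have : IsMulCommutative A := ⟨⟨fun a b => Subtype.ext (hA b.2 a a.2)⟩⟩
  have k : ∀ x : A, (orderOf x).Prime → (x : X) = z := fun x hx => by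
    obtain ⟨n, hn⟩ := hX.to_subgroup A x
    have e := (Nat.prime_dvd_prime_iff_eq hx Nat.prime_two).1
      (hx.dvd_of_dvd_pow (orderOf_dvd_of_pow_eq_one hn))
    refine (h x x.2 (by rw [← e, ← coe_pow, pow_orderOf_eq_one, coe_one])).resolve_left fun c => ?_
    rw [show x = 1 from Subtype.ext c, orderOf_one] at e
    omega
  obtain ⟨a, ha⟩ := (Subgroup.isCyclic_iff_exists_zpowers_eq_top A).1
    (Grp.isCyclic_of_prime_order_mem_zpowers fun x y hx e => by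
      rw [show y = x from Subtype.ext ((k y (e ▸ hx)).trans (k x hx).symm)]; exact mem_zpowers x)
  exact ⟨a, ha.symm⟩

/-- the modular case.  `A = ⟨a⟩`, `a ^ 4 ≠ 1` so `orderOf a = 2^n`, `n ≥ 3`, `z = a^(2^(n-1))` is the
involution of `A`.  `B = N ⊓ C(a^2)` is normal in `X`.  Let `g ∈ B \ A`.  Every `g' ∈ B \ A` has
`ph a g' = z` (in `A`, square 1 by `ph_sq`, `≠ 1`), so `B \ A = g A`.  `g^2 = a^m`, `m = 2 m'` even (`g`
centralizes `a^m`, `(a^m)^g = a^m z^m`).  `(g a^k)^2 = a^(m + 2k) z^k`; `k = -m'` (`m'` even) or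
`k = -m' + 2^(n-2)` (`m'` odd) gives `e = g a^k ∈ B \ A` with `e^2 = 1`.  `(e a^j)^2 = a^(2j) z^j = 1`
forces `j` even (else `a^(4j) = 1`, `j` odd, `a^4 = 1`) and `a^j ∈ {1, z}`.  So `ph e s ∈ {1, z}` for
all `s`; `h` gives `e ∈ {1, z} ⊆ A`. -/
theorem modular (hX : IsPGroup 2 X) {N : Subgroup X} [N.Normal] {z a : X}
    (h : ∀ e ∈ N, e ^ 2 = 1 → (∀ s, ph e s = 1 ∨ ph e s = z) → e = 1 ∨ e = z)
    (hn : (zpowers a).Normal) (ha : a ∈ N) (hC : ∀ g ∈ N, Commute a g → g ∈ zpowers a)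
    (h4 : a ^ 4 ≠ 1) {g : X} (hg : g ∈ N) (hc : Commute (a ^ 2) g) : g ∈ zpowers a := by
  by_contra hA
  have tw : ∀ x : X, Two x := fun x => hX x
  have cA : ∀ {u v}, u ∈ zpowers a → v ∈ zpowers a → Commute u v := by
    rintro _ _ ⟨i, rfl⟩ ⟨j, rfl⟩; exact Commute.zpow_zpow_self a i j
  have cen : ∀ u ∈ zpowers a, u ^ 2 = 1 → ∀ s, ph u s = 1 := fun u hu u2 s => by
    by_cases u1 : u = 1
    · simp [u1, ph]
    · rw [ph, EC.uq (pq_cj.2 hu) hu (by rw [pq_cjsq, u2]; group) u2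
        (fun e => u1 (by simpa [mul_assoc] using congrArg (fun y => s * y * s⁻¹) e)) u1, inv_mul_cancel]
  have k1 : ∀ u ∈ zpowers a, u ^ 2 = 1 → u = 1 ∨ u = z := fun u hu u2 =>
    h u (zpowers_le.2 ha hu) u2 fun s => Or.inl (cen u hu u2 s)
  obtain ⟨k, hk⟩ := (tw (a ^ 2)).exists_four (by rwa [← pow_mul])
  have cm : (a ^ 2) ^ k ∈ zpowers a := pow_mem (pow_mem (mem_zpowers a) 2) k
  have c4 : (((a ^ 2) ^ k) ^ 2) ^ 2 = 1 := by rw [← pow_mul, ← pow_orderOf_eq_one ((a ^ 2) ^ k), hk]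
  have cz := (k1 _ (pow_mem cm 2) c4).resolve_left (EC.ne2 hk)
  have zA : z ∈ zpowers a := cz ▸ pow_mem cm 2
  have z2 : z ^ 2 = 1 := cz ▸ c4
  have zc : z ∈ center X := mem_center_iff.2 fun s => (ph_eq_one.1 (cen z zA z2 s)).symm
  have k2 : ∀ x ∈ N, Commute (a ^ 2) x → x ∉ zpowers a → ph a x = z := fun x hx c n =>
    (k1 _ (ph_mem_of_normal (mem_zpowers a) x)
      (ph_sq (cA (mem_zpowers a) (ph_mem_of_normal (mem_zpowers a) x)) c)).resolve_left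
        fun e => n (hC x hx (ph_eq_one.1 e))
  have k3 : ∀ x ∈ N, Commute (a ^ 2) x → x ∉ zpowers a → ∀ y ∈ N, Commute (a ^ 2) y →
      y ∉ zpowers a → x * y ∈ zpowers a := fun x hx c n y hy c' n' =>
    hC _ (mul_mem hx hy) (ph_eq_one.1 (by
      rw [ph_mul (by rw [k2 x hx c n]; exact zc), k2 x hx c n, k2 y hy c' n', ← sq, z2]))
  have k4 : ∀ x ∈ N, Commute (a ^ 2) x → x ∉ zpowers a → ∀ j : ℕ,
      (Even j ∧ ph (a ^ j) x = 1) ∨ (Odd j ∧ ph (a ^ j) x = z) := fun x hx c n j => by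
    obtain ⟨i, rfl | rfl⟩ := Nat.even_or_odd' j
    · exact Or.inl ⟨even_two_mul i, ph_eq_one.2 (pow_mul a 2 i ▸ c.pow_left i)⟩
    · refine Or.inr ⟨odd_two_mul_add_one i, ?_⟩
      rw [pow_succ, ph_mul_left, pow_mul, ph_eq_one.2 (c.pow_left i), k2 x hx c n]; group
  have sqm : ∀ x u : X, (x * u) ^ 2 = x ^ 2 * (u * ph u x * u) := fun x u => by
    simp only [sq, ph]; group
  obtain ⟨e, eN, ec, eA, e2⟩ : ∃ e ∈ N, Commute (a ^ 2) e ∧ e ∉ zpowers a ∧ e ^ 2 = 1 := by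
    obtain ⟨m, hm⟩ := mem_powers_iff_mem_zpowers.2 (inv_mem (k3 g hg hc hA g hg hc hA))
    dsimp only at hm
    obtain ⟨⟨j, rfl⟩, -⟩ := (k4 g hg hc hA m).resolve_right fun c => EC.ne2 hk (by
      rw [cz, ← c.2, hm]; simp [ph, mul_assoc])
    have jA := pow_mem (mem_zpowers a) j
    have cj := hc.mul_right ((Commute.refl a).pow_pow 2 j)
    have nj : g * a ^ j ∉ zpowers a := fun c => hA ((mul_mem_cancel_right jA).1 c)
    rcases k4 g hg hc hA j with c | c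
    · exact ⟨g * a ^ j, mul_mem hg (pow_mem ha j), cj, nj, by
        rw [sqm, c.2, mul_one, ← pow_add, hm, sq, mul_inv_cancel]⟩
    · refine ⟨g * a ^ j * (a ^ 2) ^ k, mul_mem (mul_mem hg (pow_mem ha j)) (zpowers_le.2 ha cm),
        cj.mul_right ((Commute.refl _).pow_right k), fun c => nj ((mul_mem_cancel_right cm).1 c), ?_⟩
      rw [(cj.pow_left k).symm.mul_pow, cz, sqm, c.2, mul_assoc (a ^ j), ← mem_center_iff.1 zc,
        ← mul_assoc (a ^ j), ← pow_add, hm, sq g, mul_inv_cancel_left, ← sq, z2]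
  have ei : e⁻¹ = e := inv_eq_of_mul_eq_one_right (by rwa [← sq])
  refine eA ((h e eN e2 fun s => ?_).elim (fun c => c ▸ one_mem _) fun c => c ▸ zA)
  have c1 : Commute (a ^ 2) (s⁻¹ * e * s) := by
    obtain ⟨r, hr⟩ := hn.conj_mem a (mem_zpowers a) s
    dsimp only at hr
    have := ec.zpow_left r
    rw [← zpow_natCast, ← zpow_mul, mul_comm, zpow_mul, hr, zpow_natCast, conj_pow] at this
    calc _ = s⁻¹ * (s * a ^ 2 * s⁻¹ * e) * s := by group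
      _ = _ := by rw [this]; group
  obtain ⟨j, hj⟩ := mem_powers_iff_mem_zpowers.2
    (k3 e eN ec eA _ (pq_cj.2 eN) c1 fun c => eA (pq_cj.1 c))
  dsimp only at hj
  have jA := pow_mem (mem_zpowers a) j
  have q : a ^ j * ph (a ^ j) e * a ^ j = 1 := by
    have := sqm e (a ^ j)
    rw [e2, one_mul] at this
    rw [← this, hj, ← mul_assoc, ← sq, e2, one_mul, pq_cjsq, e2]; group
  rw [ph, ei, ← hj]
  rcases k4 e eN ec eA j with c | c <;> rw [c.2] at q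
  · exact k1 _ jA (by rwa [mul_one, ← sq] at q)
  · refine absurd (pq_odd (tw _) c.1 ?_) h4
    rw [mul_assoc, ← mem_center_iff.1 zc, ← mul_assoc, mul_eq_one_iff_eq_inv] at q
    rw [← pow_mul, mul_comm, pow_mul, show 4 = 2 * 2 from rfl, pow_mul, sq (a ^ j), q, inv_pow, z2,
      inv_one]

/-- Proof.  `A` from `exists_max_ab`.  `E = {e ∈ A | e^2 = 1}` is normal; `exists_cen` with
`K = zpowers z = {1, z}` and `h` show `E ≤ {1, z}`; so `A = ⟨a⟩`.  If `N = A` take `b = 1`; else pick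
`b ∈ N \ A`.  For `g ∈ N`, `g⁻¹ a g = a^r`, `r` odd.  Claim: `r ≡ 1 (mod 4)` ⇒ `g ∈ A`.  If `a^4 = 1` then
`g` commutes with `a`.  Otherwise suppose `g ∉ A`, let `g' = g^k ∉ A`, `g'^2 ∈ A`
(`Two.exists_pow_sq`), `r' = r^k ≡ 1 (4)`, `2^n ∣ r'^2 - 1 = (r'-1)(r'+1)`, `r'+1 ≡ 2 (4)`, so
`2^(n-1) ∣ r' - 1`, `g'` commutes with `a^2`; `modular`.  So `g, b ∉ A` have `r ≡ 3`, and `g b⁻¹` has
`r ≡ 1 (mod 4)` (or: both invert the element(s) of order 4 of `A`). -/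
theorem cyc_two (hX : IsPGroup 2 X) (N : Subgroup X) [N.Normal] {z : X} (hz : z ∈ center X)
    (hz2 : z ^ 2 = 1)
    (h : ∀ e ∈ N, e ^ 2 = 1 → (∀ s, ph e s = 1 ∨ ph e s = z) → e = 1 ∨ e = z) :
    ∃ a ∈ N, ∃ b ∈ N, ∀ g ∈ N, g ∈ zpowers a ∨ g * b⁻¹ ∈ zpowers a := by
  obtain ⟨A, nA, AN, hA⟩ := exists_max_ab hX N
  have AC : A ≤ Ce A := fun g hg => (hA g (AN hg)).1 hg
  have cA : ∀ {u v}, u ∈ A → v ∈ A → Commute u v := fun hu hv => AC hv _ hu
  let E : Subgroup X :=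
    { carrier := {e | e ∈ A ∧ e ^ 2 = 1}
      one_mem' := ⟨one_mem _, one_pow 2⟩
      mul_mem' := fun hu hv => ⟨mul_mem hu.1 hv.1, by rw [(cA hu.1 hv.1).mul_pow, hu.2, hv.2, one_mul]⟩
      inv_mem' := fun hu => ⟨inv_mem hu.1, by rw [inv_pow, hu.2, inv_one]⟩ }
  have : E.Normal := ⟨fun e he g => ⟨nA.conj_mem e he.1 g, by rw [conj_pow, he.2]; group⟩⟩
  have : (zpowers z).Normal := ⟨fun e he g => by
    rwa [mem_center_iff.1 (zpowers_le.2 hz he), mul_inv_cancel_right]⟩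
  have EK : E ≤ zpowers z := by_contra fun c => by
    obtain ⟨g, h1, h2, h3⟩ := exists_cen hX c
    rcases h g (AN h1.1) h1.2 fun s => pq_zp hz2 (h3 s) with e | e <;> rw [e] at h2
    exacts [h2 (one_mem _), h2 (mem_zpowers z)]
  have k1 : ∀ e ∈ A, e ^ 2 = 1 → e = 1 ∨ e = z := fun e h1 h2 => pq_zp hz2 (EK ⟨h1, h2⟩)
  have kc : ∀ e ∈ A, e ^ 2 = 1 → e ∈ center X := fun e h1 h2 =>
    (k1 e h1 h2).elim (fun c => c ▸ one_mem _) fun c => c ▸ hz
  obtain ⟨a, rfl⟩ := eq_zpowers hX AC k1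
  have aA := mem_zpowers a
  have hC : ∀ g ∈ N, Commute a g → g ∈ zpowers a := fun g hg c => (hA g hg).2 (by
    rintro _ ⟨i, rfl⟩; exact c.zpow_left i)
  obtain ⟨v, vA, v4, hv⟩ : ∃ v ∈ zpowers a, (v ^ 2) ^ 2 = 1 ∧ ∀ g ∈ N, Commute v g → g ∈ zpowers a := by
    by_cases h4 : a ^ 4 = 1
    · exact ⟨a, aA, by rwa [← pow_mul], hC⟩
    have o4 : ∀ v ∈ zpowers a, orderOf v = 4 → (v ^ 2) ^ 2 = 1 ∧ v ^ 2 = z := fun v hv e => by
      have q : (v ^ 2) ^ 2 = 1 := by rw [← pow_mul, ← pow_orderOf_eq_one v, e]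
      exact ⟨q, (k1 _ (pow_mem hv 2) q).resolve_left (EC.ne2 e)⟩
    obtain ⟨k, hk⟩ := Two.exists_four (hX a) fun c => h4 (by rw [show 4 = 2 * 2 from rfl, pow_mul, c, one_pow])
    have m := pow_mem aA k
    refine ⟨_, m, (o4 _ m hk).1, fun g hg c => by_contra fun n => ?_⟩
    obtain ⟨i, n1, n2⟩ := Two.exists_pow_sq (hX g) n
    have p := ph_mem_of_normal aA (g ^ i)
    have iv : Iv (g ^ i) (ph a (g ^ i)) := iv_ph (cA aA n2)
    refine n1 (modular hX h nA (AN aA) hC h4 (pow_mem hg i) (ph_eq_one.1 ?_))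
    have q : ph a (g ^ i) ^ 2 = 1 := by_contra fun q => by
      obtain ⟨j, hj⟩ := Two.exists_four (hX _) q
      have m' := pow_mem p j
      have := (EC.cm (kc _ (mul_mem m' (inv_mem m)) (by
        rw [(cA m' (inv_mem m)).mul_pow, inv_pow, (o4 _ m hk).2, (o4 _ m' hj).2, mul_inv_cancel]))
        (g ^ i)).mul_left (c.pow_right i)
      rw [inv_mul_cancel_right] at this
      exact hy_not (iv.pow j) (EC.ne2 hj) this
    rw [ph, ← pq_cjsq, conj_eq_ph, (cA aA p).mul_pow, q, mul_one, inv_mul_cancel]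
  have k2 : ∀ g ∈ N, g ∉ zpowers a → ph v g = z := fun g hg n =>
    (k1 _ (ph_mem_of_normal vA g) (ph_sq (cA vA (ph_mem_of_normal vA g))
      (EC.cm (kc _ (pow_mem vA 2) v4) g))).resolve_left fun e => n (hv g hg (ph_eq_one.1 e))
  by_cases hN : N ≤ zpowers a
  · exact ⟨a, AN aA, 1, one_mem _, fun g hg => Or.inl (hN hg)⟩
  obtain ⟨b, hb, nb⟩ := SetLike.not_le_iff_exists.1 hN
  refine ⟨a, AN aA, b, hb, fun g hg => or_iff_not_imp_left.2 fun n =>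
    hv _ (mul_mem hg (inv_mem hb)) (ph_eq_one.1 ?_)⟩
  rw [ph_mul (by rw [k2 g hg n]; exact hz), k2 g hg n,
    k2 _ (inv_mem hb) fun c => nb (inv_mem_iff.1 c), ← sq, hz2]

end

end Cfsg.Agent.Rcs
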