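import Mathlib
import Cfsg.Agent.Rcs.Defs
import Cfsg.Agent.Rcs.Hy
import Cfsg.Agent.S0028

/-! S3860: lemmas L5, L5', L6, W. -/

set_option autoImplicit false
set_option linter.unusedSectionVars false

namespace Cfsg.Agent.Rcs

open Subgroup Cfsg.Agent.PLocal.CF

variable {G : Type*} [Group G] [Finite G] {c : ℕ}

variable {x t : G} {T : Subgroup G}

theorem hz_nm {R : Subgroup G} {g v : G} (hg : g ∈ Nm R) (hv : v ∈ R) : g⁻¹ * v * g ∈ R :=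
  (mem_normalizer_iff''.1 hg v).1 hv

theorem hz_ce {g : G} : g ∈ Ce T ↔ T ≤ C1 g :=
  ⟨fun h a ha => mem_C1.2 (h a ha).symm, fun h _ ha => (mem_C1.1 (h ha)).symm.eq⟩

theorem hz_nce {g v : G} (hg : g ∈ Nm T) (hv : v ∈ Ce T) : g⁻¹ * v * g ∈ Ce T := fun a ha => by
  have := hv _ (conj_mem_of_mem_nm hg ha)
  calc a * (g⁻¹ * v * g) = g⁻¹ * (g * a * g⁻¹ * v) * g := by group
    _ = _ := by rw [this]; group

theorem hz_mem_nm {R : Subgroup G} {g : G} (h : ∀ v ∈ R, g⁻¹ * v * g ∈ R) : g ∈ Nm R :=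
  inv_mem_iff.1 (mem_normalizer_fintype fun v hv => by simpa using h v hv)

theorem hz_odd {g : G} (h : Two g) {n : ℕ} (hn : Odd n) (e : g ^ n = 1) : g = 1 :=
  h.eq_one (hn.of_dvd_nat (orderOf_dvd_of_pow_eq_one e))

theorem Pr.hz_nc (p : Pr c x t T) : x ∉ center G := not_central_of_iv p.iv (sq_ne_one_of_odd p.ne p.odd)

/-- L5. A 2-subgroup `R ≤ C(T)` normalized by `x` and `t` lies in `T`.
Proof: for `v ∈ R`, `ph v t ∈ R` is inverted by `t` (`iv_ph`, `t^2 ∈ T` commutes with `v`), a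
2-element centralizing `T`, so in `T` (`Pr.mem_of_real`).  So `t` acts trivially on `R / R₀`,
`R₀ = R ⊓ T ≤ Z(R)` (normalized by `x, t`).  The elements `g ∈ N(R) ⊓ N(R₀)` with
`ph v g ∈ R₀` for all `v ∈ R` form a subgroup `K` normalized by `x`; `t ∈ K`, so
`x^2 = (x t⁻¹ x⁻¹)⁻¹…`, precisely `x * (t⁻¹ x⁻¹ t)⁻¹…`: `[x,t] = x⁻¹ * x^t = x⁻²∈ K`, so `x ∈ K` (odd order).
`x` centralizes `R₀`, so `v^(x^n) = v * ν^n` with `ν = ph v x ∈ R₀` a 2-element; `n = orderOf x` odd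
gives `ν = 1`.  So `R ≤ C(x)`, and `Pr.mem_of` (with `y = x`) gives `R ≤ T`. -/
theorem Pr.l5 (h : Hyp G c) (p : Pr c x t T) {R : Subgroup G} (hR : IsPGroup 2 R) (hRT : R ≤ Ce T)
    (hx : x ∈ Nm R) (ht : t ∈ Nm R) : R ≤ T := by
  have a : ∀ v ∈ R, ph v t ∈ T := fun v hv =>
    have k := mul_mem (inv_mem hv) (hz_nm ht hv)
    p.mem_of_real h (iv_ph (hRT hv _ p.sq).symm) (Two.of_mem hR k) (hz_ce.1 (hRT k))
  intro v hv
  have h1 := hz_nm hx hv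
  obtain ⟨ν, hν, e⟩ : ∃ ν ∈ T, (x ^ 2)⁻¹ * v * x ^ 2 = v * ν := by
    refine ⟨_, mul_mem (a _ h1) (inv_mem (a _ (hz_nm hx h1))), ?_⟩
    have k := (mem_C1.1 (p.le (a _ h1))).eq
    have i : t⁻¹ * x * t = x⁻¹ := p.iv
    have : t⁻¹ * (x⁻¹ * (x⁻¹ * v * x) * x) * t = v * ph (x⁻¹ * v * x) t := by
      calc _ = (t⁻¹ * x * t)⁻¹ * (x⁻¹ * v * x * ph (x⁻¹ * v * x) t) * (t⁻¹ * x * t) := by
            simp only [ph]; group
        _ = v * (x * ph (x⁻¹ * v * x) t) * x⁻¹ := by rw [i]; group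
        _ = _ := by rw [k]; group
    rw [← mul_assoc, ← this]
    simp [ph, pow_two, mul_assoc]
  have k := ((mem_C1.1 (p.le hν)).pow_left 2)
  have e' : ∀ n : ℕ, ((x ^ 2) ^ n)⁻¹ * v * (x ^ 2) ^ n = v * ν ^ n := fun n => by
    induction n with
    | zero => simp
    | succ n ih =>
      calc _ = (x ^ 2)⁻¹ * (((x ^ 2) ^ n)⁻¹ * v * (x ^ 2) ^ n) * x ^ 2 := by group
        _ = (x ^ 2)⁻¹ * v * (ν ^ n * x ^ 2) := by rw [ih]; group
        _ = _ := by rw [← (k.pow_right n).eq, ← mul_assoc, e, pow_succ', mul_assoc]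
  have := e' (orderOf x)
  rw [← pow_mul, mul_comm 2, pow_mul, pow_orderOf_eq_one] at this
  obtain rfl := hz_odd (Two.of_mem p.pg hν) p.odd (by simpa using this)
  have c2 : Commute (x ^ 2) v := by
    rw [mul_one, mul_assoc, inv_mul_eq_iff_eq_mul] at e; exact e.symm
  obtain ⟨m, hm⟩ := p.odd
  have := c2.pow_left (m + 1)
  rw [← pow_mul, show 2 * (m + 1) = orderOf x + 1 by omega, pow_succ, pow_orderOf_eq_one, one_mul] at this
  exact p.mem_of h p.iv p.hz_nc p.le this (centralizer_le_normalizer _ (hRT hv)) (Two.of_mem hR hv)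

/-- L5'. A 2-subgroup `R` normalized by `T`, `x`, `t` is centralized by `x`.
Proof: `R ⊓ C(T)` satisfies `l5`, so it lies in `T ≤ C(x)`; Thompson's P×Q lemma (S0028) with
`P = T`, `Q = ⟨x⟩`, `U = R`. -/
theorem Pr.l5' (h : Hyp G c) (p : Pr c x t T) {R : Subgroup G} (hR : IsPGroup 2 R) (hT : T ≤ Nm R)
    (hx : x ∈ Nm R) (ht : t ∈ Nm R) : R ≤ C1 x := by
  have e : Ce (zpowers x) = C1 x := by rw [Ce, zpowers_eq_closure, centralizer_closure]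
  have k : ∀ g ∈ Nm R, g ∈ Nm T → g ∈ Nm (R ⊓ Ce T) := fun g h1 h2 =>
    hz_mem_nm fun v hv => ⟨hz_nm h1 hv.1, hz_nce h2 hv.2⟩
  have := S0028.result 2 T (zpowers x) R p.pg (by
    rw [Nat.card_zpowers]; exact p.odd.coprime_two_right) hR (p.le.trans e.ge) hT (zpowers_le.2 hx)
    ((p.l5 h (hR.to_le inf_le_left) inf_le_right (k x hx (centralizer_le_normalizer _ (hz_ce.2 p.le)))
      (k t ht p.nm)).trans (p.le.trans e.ge))
  exact hz_ce.1 (this (mem_zpowers x))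

/-- L6. No `s ∈ N(T) \ T` with `s^2 ∈ T`, `[s,t] ∈ T`, `s t ∉ T C(T)`, `x^s ∈ C(T)`.
Proof: `x' = s⁻¹ x s ∈ C(T)` (automatic: `s` normalizes `T ≤ C(x)`), `x'^s = x` (`s^2 ∈ T`), and
`t` inverts `x'` (`s⁻¹ t s = t * τ`, `τ ∈ T`, inverts `x'` and `τ` commutes with `x'`).
`g = x⁻¹ x' ∈ C(T)` is inverted by `t x` (`(x⁻¹x')^t = x x'⁻¹`, conjugate by `x`: `x'⁻¹ x`) and by `s`,
so `k = s * (t * x)` commutes with `g` (`Iv.comm_mul`).  Write `g = g₂ g₀` (`exists_parts`);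
`g₂ ∈ T` (`mem_of_real`).  If `g₀ = 1`: `x' = x g₂` with `g₂` commuting with `x`, `x'` of odd order
forces `g₂ = 1`, so `s ∈ C(x)`, `s ∈ T` by `Pr.mem_of` (`s` is a 2-element), contradiction.
If `g₀ ≠ 1`: `g₀` is real of odd order, `T ≤ C(g₀)`, `k ∈ C(g₀) ⊓ N(T)`.  `M = T ⊔ C(T)` is normal in
`N(T)`, `k ≡ s t ∉ M`, `(s t)^2 ∈ T`, so `k^2 ∈ M`; hence for odd `m`, `k^m ∉ M`.  Take odd `m` with
`Two (k^m)`; `Pr.mem_of` (`y = g₀`) gives `k^m ∈ T ≤ M`, contradiction. -/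
theorem Pr.l6 (h : Hyp G c) (p : Pr c x t T) {s : G} (hn : s ∈ Nm T) (h2 : s ^ 2 ∈ T)
    (hc : ph t s ∈ T) (hs : s ∉ T) (hst : s * t ∉ T ⊔ Ce T) : False := by
  have xc : x ∈ Ce T := hz_ce.2 p.le
  have xc' := hz_nce hn xc
  have gc := mul_mem (inv_mem xc) xc'
  have i : t⁻¹ * x * t = x⁻¹ := p.iv
  have i1 : t⁻¹ * (s⁻¹ * x * s) * t = (s⁻¹ * x * s)⁻¹ := by
    have := (p.iv.conj s).mul_right (s := (ph t s)⁻¹) (Commute.inv_right (xc' _ hc).symm)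
    rwa [show s⁻¹ * t * s * (ph t s)⁻¹ = t by simp only [ph]; group] at this
  have i2 : Iv (t * x) (x⁻¹ * (s⁻¹ * x * s)) := by
    calc _ = x⁻¹ * (t⁻¹ * x * t)⁻¹ * (t⁻¹ * (s⁻¹ * x * s) * t) * x := by group
      _ = _ := by rw [i, i1]; group
  have i3 : Iv s (x⁻¹ * (s⁻¹ * x * s)) := by
    calc _ = s⁻¹ * x⁻¹ * s * (s ^ 2)⁻¹ * (x * s ^ 2) := by rw [pow_two]; group
      _ = _ := by rw [← xc _ h2]; group
  obtain ⟨a, b, h3, h4, h5⟩ := exists_parts (x⁻¹ * (s⁻¹ * x * s))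
  by_cases h6 : (x⁻¹ * (s⁻¹ * x * s)) ^ b = 1
  · rw [h6, mul_one] at h5
    rw [h5] at h3
    have k : Commute x _ := mem_C1.1 (p.le (p.mem_of_real h i3 h3 (hz_ce.1 gc)))
    have := k.mul_pow (orderOf x)
    rw [mul_inv_cancel_left, pow_orderOf_eq_one, one_mul, ← inv_inv s, inv_inv s⁻¹, conj_pow,
      pow_orderOf_eq_one] at this
    have e := hz_odd h3 p.odd (by simpa using this.symm)
    rw [inv_mul_eq_one, mul_assoc, eq_inv_mul_iff_mul_eq] at e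
    obtain ⟨n, hn2⟩ := Two.of_mem p.pg h2
    exact hs (p.mem_of h p.iv p.hz_nc p.le e.symm hn ⟨n + 1, by rwa [pow_succ', pow_mul]⟩)
  obtain ⟨m, ⟨r, rfl⟩, hm⟩ := exists_odd_pow_two (s * (t * x))
  have st := mul_mem hn p.nm
  have k1 := p.mem_of h (i3.pow b) (not_central_of_iv (i3.pow b) (sq_ne_one_of_odd h6 h4))
    (hz_ce.1 (pow_mem gc b)) (((i2.comm_mul i3).pow_left b).pow_right _)
    (pow_mem (mul_mem hn (mul_mem p.nm (centralizer_le_normalizer _ xc))) _) hm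
  have k2 : (s * (t * x)) ^ 2 ∈ T ⊔ Ce T := by
    have := mul_mem (mem_sup_left (T := Ce T) (mul_mem (mul_mem h2 p.sq) (hz_nm p.nm hc)))
      (mem_sup_right (mul_mem (hz_nce st xc) xc))
    convert this using 1
    simp only [ph, pow_two]; group
  have k3 := mem_sup_left (T := Ce T) k1
  rw [pow_succ, pow_mul, mul_mem_cancel_left (pow_mem k2 r), ← mul_assoc,
    mul_mem_cancel_right (mem_sup_right xc)] at k3
  exact hst k3

/-- W. If `t ^ 2` is central, every `τ ∈ T` inverted by `t` is central in `T`.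
Proof: induction on `k` with `τ ^ 2 ^ k = 1`.  If `τ^2 = 1`, `τ` is central in `G` (`mix_invol`).
Otherwise `τ^2 ∈ Z(T)` by induction.  Let `N = T ⊓ C(τ)`, normalized by `t`; suppose `N < T`.
`N* = Sd N t < Sd T t` (2-group), so some `s ∈ Sd T t \ N*` normalizes `N*` (`lt_inf_nm`); multiplying by
`t⁻¹` assume `s ∈ T`; `s` normalizes `N = T ⊓ N*`.  `ρ = ph t s ∈ N* ⊓ T = N`.  `τ' = s⁻¹ τ s` commutes
with `N` (as `τ` does), lies in `N`, is inverted by `s⁻¹ t s = t ρ`, hence by `t`; `τ'^2 = τ^2`.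
So `ν = τ⁻¹ τ'` has `ν^2 = 1`, is inverted hence centralized by `t`, lies in `T ≤ C(x)`: central
(`mix_invol`).  `mix_cen` gives `s ∈ C(τ)`, so `s ∈ N`, contradiction. -/
theorem Pr.w_cent (h : Hyp G c) (p : Pr c x t T) (hz : t ^ 2 ∈ center G) {τ : G} (hτ : τ ∈ T)
    (hi : Iv t τ) : T ≤ C1 τ := by
  obtain ⟨k, hk⟩ := Two.of_mem p.pg hτ
  induction k generalizing τ with
  | zero => exact fun a _ => mem_C1.2 (by rw [pow_zero, pow_one] at hk; simp [hk])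
  | succ k ih =>
  have h2 := ih (pow_mem hτ 2) (hi.pow 2) (by rwa [← pow_mul, ← pow_succ'])
  by_contra hn
  have tn : t ∈ Nm (T ⊓ C1 τ) := hz_mem_nm fun v hv => ⟨hz_nm p.nm hv.1, mem_C1.2 (by
    have e : t⁻¹⁻¹ * τ * t⁻¹ = τ⁻¹ := hi.symm'
    have := (mem_C1.1 hv.2).inv_left.eq
    rw [← e] at this
    calc τ * (t⁻¹ * v * t) = t⁻¹ * (t⁻¹⁻¹ * τ * t⁻¹ * v) * t := by group
      _ = _ := by rw [this]; group)⟩
  have t2 : t ^ 2 ∈ T ⊓ C1 τ := ⟨p.sq, mem_C1.2 (mem_center_iff.1 hz τ)⟩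
  have tN : t ∈ Sd (T ⊓ C1 τ) t := mem_sup_right (mem_zpowers t)
  have dn : ∀ v ∈ Sd (T ⊓ C1 τ) t, v ∈ T → Commute τ v := fun v hv hT =>
    ((mem_Sd tn t2).1 hv).elim (fun r => mem_C1.1 r.2) fun r =>
      absurd (inv_mem_iff.1 ((mul_mem_cancel_right hT).1 r.1)) p.notMem
  obtain ⟨s, sT, sN, s0⟩ : ∃ s ∈ T, s ∈ Nm (Sd (T ⊓ C1 τ) t) ∧ s ∉ Sd (T ⊓ C1 τ) t := by
    have := Fact.mk Nat.prime_two
    obtain ⟨s, ⟨h1, h3⟩, h4⟩ := SetLike.exists_of_lt (lt_inf_nm p.pg_sd (lt_of_le_of_ne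
      (sup_le_sup_right inf_le_left _) fun e => hn fun a ha =>
        mem_C1.2 (dn a (e.ge (mem_sup_left ha)) ha)))
    rcases (mem_Sd p.nm p.sq).1 h1 with r | r
    · exact ⟨s, r, h3, h4⟩
    · exact ⟨_, r, mul_mem (inv_mem (le_normalizer tN)) h3,
        fun r' => h4 ((mul_mem_cancel_left (inv_mem tN)).1 r')⟩
  have cm : ∀ v ∈ Sd (T ⊓ C1 τ) t, v ∈ T → Commute (s⁻¹ * τ * s) v := fun v hv hT => by
    have := (dn _ (conj_mem_of_mem_nm sN hv) (mul_mem (mul_mem sT hT) (inv_mem sT))).eq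
    calc s⁻¹ * τ * s * v = s⁻¹ * (τ * (s * v * s⁻¹)) * s := by group
      _ = _ := by rw [this]; group
  have i1 : Iv t (s⁻¹ * τ * s) := by
    have := (hi.conj s).mul_right (s := (ph t s)⁻¹) (Commute.inv_right (cm _
      (mul_mem (inv_mem tN) (hz_nm sN tN)) (by
        have := mul_mem (hz_nm p.nm (inv_mem sT)) sT
        convert this using 1
        simp only [ph]; group)))
    rwa [show s⁻¹ * t * s * (ph t s)⁻¹ = t by simp only [ph]; group] at this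
  have c1 := (cm τ (mem_sup_left ⟨hτ, mem_C1.2 (Commute.refl τ)⟩) hτ).symm.inv_left
  have n2 : ph τ s ^ 2 = 1 := by
    rw [ph, c1.mul_pow, show (s⁻¹ * τ * s) ^ 2 = s⁻¹ * (τ ^ 2 * s) by rw [pow_two, pow_two]; group,
      (mem_C1.1 (h2 sT)).eq]
    group
  have i2 : t⁻¹ * ph τ s * t = (ph τ s)⁻¹ := hi.inv.mul i1 c1
  rw [inv_eq_of_mul_eq_one_right ((pow_two (ph τ s)).symm.trans n2), mul_assoc, inv_mul_eq_iff_eq_mul] at i2
  have := h.mix_invol p.ne p.odd n2 (mem_C1.1 (p.le (mul_mem (inv_mem hτ) (hz_nm (le_normalizer sT) hτ))))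
    p.iv i2
  exact s0 (mem_sup_left ⟨sT, mem_C1.2 (h.mix_cen p.ne p.odd (Two.of_mem p.pg hτ) (mem_C1.1 (p.le hτ))
    p.iv hi (mem_C1.1 (p.le sT)) (Two.of_mem p.pg sT) this)⟩)

end Cfsg.Agent.Rcs
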