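import Mathlib
import Cfsg.Agent.Rcs.Defs

/-! S3860: `Hyp` passes to quotients by normal subgroups of odd order. -/

set_option autoImplicit false
set_option linter.unusedSectionVars false

namespace Cfsg.Agent.Rcs

open Subgroup Cfsg.Agent.PLocal.CF

variable {G : Type*} [Group G] [Finite G] {c : ℕ}

namespace Quo

variable {H : Type*} [Group H]

theorem cardK (f : G →* H) (K : Subgroup G) : Nat.card K = Nat.card ↥(f.ker ⊓ K) * Nat.card (K.map f) := by
  rw [← relIndex_ker, ← inf_relIndex_right, ← relIndex_bot_left, ← relIndex_bot_left,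
    relIndex_mul_relIndex _ _ _ bot_le inf_le_right]

/-- the extended centralizer -/
def E (π : G →* H) (y : H) : Subgroup (G × ℤˣ) where
  carrier := {γ | π γ.1 * y ^ (γ.2 : ℤ) * (π γ.1)⁻¹ = y}
  one_mem' := by simp
  mul_mem' {a b} ha hb := by
    rw [Set.mem_ofPred_eq] at *
    conv_rhs => rw [← ha, ← hb, conj_zpow, ← zpow_mul]
    simp only [Prod.fst_mul, Prod.snd_mul, map_mul, Units.val_mul, mul_inv_rev, mul_assoc, mul_comm (a.2 : ℤ)]
  inv_mem' {a} ha := by
    rw [Set.mem_ofPred_eq] at *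
    conv_lhs => rw [← ha, conj_zpow, ← zpow_mul]
    simp [mul_assoc]

theorem mem_E {π : G →* H} {y : H} {γ : G × ℤˣ} : γ ∈ E π y ↔ π γ.1 * y ^ (γ.2 : ℤ) * (π γ.1)⁻¹ = y := Iff.rfl

theorem card_E (π : G →* H) (y : H) : Nat.card (E π y) =
    Nat.card ((C1 y).comap π) * Nat.card ((E π y).map (MonoidHom.snd G ℤˣ)) := by
  rw [cardK (MonoidHom.snd G ℤˣ), ← Subgroup.card_map_of_injective (K := (C1 y).comap π) (f := MonoidHom.inl G ℤˣ)
    (Prod.mk_left_injective 1)]
  congr 3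
  ext ⟨g, e⟩
  simp only [mem_inf, MonoidHom.mem_ker, MonoidHom.coe_snd, mem_E, mem_map, mem_comap, mem_C1, MonoidHom.inl_apply,
    Prod.mk.injEq]
  constructor
  · rintro ⟨rfl, h⟩
    exact ⟨g, (mul_inv_eq_iff_eq_mul.1 (by simpa using h)).symm, rfl, rfl⟩
  · rintro ⟨g, h, rfl, rfl⟩
    exact ⟨rfl, by simp [← h.eq]⟩

theorem card_real {π : G →* H} {y : H} {t : G} (h : Iv (π t) y) :
    Nat.card ((E π y).map (MonoidHom.snd G ℤˣ)) = 2 := by
  rw [(eq_top_iff' ((E π y).map (MonoidHom.snd G ℤˣ))).2 fun e => ?_, card_top, Nat.card_eq_fintype_card, Fintype.card_units_int]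
  rcases Int.units_eq_one_or e with rfl | rfl
  · exact one_mem _
  · exact ⟨(t, -1), by simp [mem_E, ← show _ = y⁻¹ from h, mul_assoc], rfl⟩

theorem card_nreal {π : G →* H} {y : H} (h : ∀ t, ¬ Iv (π t) y) :
    Nat.card ((E π y).map (MonoidHom.snd G ℤˣ)) = 1 := by
  rw [card_eq_one, eq_bot_iff]
  rintro _ ⟨⟨t, e⟩, k, rfl⟩
  rcases Int.units_eq_one_or e with rfl | rfl
  · rfl
  · refine (h t ?_).elim
    have k' : π t * y⁻¹ * (π t)⁻¹ = y := by simpa [mem_E] using k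
    calc (π t)⁻¹ * y * π t = (π t)⁻¹ * (π t * y⁻¹ * (π t)⁻¹) * π t := by rw [k']
      _ = y⁻¹ := by group

end Quo

open Quo in
/-- A Sylow 2-subgroup of the preimage of the extended centralizer of `ȳ` (inside `G × {±1}`, acting by
`(g, ε) • y = g y^ε g⁻¹`) has a fixed point in the fibre over `ȳ`, which has odd size. -/
theorem Hyp.quot (h : Hyp G c) (N : Subgroup G) [N.Normal] (hN : Odd (Nat.card N)) :
    Hyp (G ⧸ N) c := by
  intro y t ht hz
  have := Fact.mk Nat.prime_two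
  obtain ⟨π, hπ, hk⟩ : ∃ π : G →* G ⧸ N, Function.Surjective π ∧ π.ker = N :=
    ⟨_, QuotientGroup.mk'_surjective N, QuotientGroup.ker_mk' N⟩
  obtain ⟨t, rfl⟩ := hπ t
  obtain ⟨P⟩ : Nonempty (Sylow 2 (E π y)) := inferInstance
  let : MulAction P (π ⁻¹' {y}) :=
    { smul := fun γ x => ⟨γ.1.1.1 * x.1 ^ (γ.1.1.2 : ℤ) * γ.1.1.1⁻¹, by
        rw [Set.mem_preimage, map_mul, map_mul, map_inv, map_zpow, show π x.1 = y from x.2]
        exact γ.1.2⟩
      one_smul := fun x => Subtype.ext (by change (1 : G) * x.1 ^ (1 : ℤ) * 1⁻¹ = x.1; simp)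
      mul_smul := fun a b x => Subtype.ext (by
        change a.1.1.1 * b.1.1.1 * x.1 ^ ((a.1.1.2 : ℤ) * b.1.1.2) * (a.1.1.1 * b.1.1.1)⁻¹ =
          a.1.1.1 * (b.1.1.1 * x.1 ^ (b.1.1.2 : ℤ) * b.1.1.1⁻¹) ^ (a.1.1.2 : ℤ) * a.1.1.1⁻¹
        rw [conj_zpow, ← zpow_mul, mul_comm (b.1.1.2 : ℤ)]
        simp only [mul_inv_rev, mul_assoc]) }
  have n2 : ¬ 2 ∣ Nat.card N := hN.not_two_dvd_nat
  obtain ⟨x, hx⟩ := P.isPGroup'.nonempty_fixed_point_of_prime_not_dvd_card (π ⁻¹' {y})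
    (by rwa [Nat.card_congr (MonoidHom.fiberEquivKerOfSurjective hπ y), hk])
  have hC : Nat.card ((C1 y).comap π) = Nat.card N * Nat.card (C1 y) := by
    rw [cardK π, inf_eq_left.2 (ker_le_comap π _), hk, map_comap_eq_self_of_surjective hπ]
  have f1 : (Nat.card ((C1 y).comap π)).factorization 2 = (Nat.card (C1 y)).factorization 2 := by
    rw [hC, Nat.factorization_mul Nat.card_pos.ne' Nat.card_pos.ne', Finsupp.add_apply,
      Nat.factorization_eq_zero_of_not_dvd n2, zero_add]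
  have d1 : Nat.card (C1 x.1) ∣ Nat.card ((C1 y).comap π) := card_dvd_of_le fun g hg =>
    mem_C1.2 ((show π x.1 = y from x.2) ▸ (mem_C1.1 hg).map π)
  have d2 : 2 ^ ((Nat.card (C1 y)).factorization 2 + 1) ∣
      Nat.card (C1 x.1) * Nat.card ((E (MonoidHom.id G) x.1).map (MonoidHom.snd G ℤˣ)) := by
    have e := P.card_eq_multiplicity
    rw [card_E, card_real ht, Nat.factorization_mul Nat.card_pos.ne' two_ne_zero, Finsupp.add_apply, f1,
      Nat.prime_two.factorization_self] at e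
    rw [← e, ← comap_id (C1 x.1), ← card_E, ← Subgroup.card_map_of_injective (E π y).subtype_injective]
    refine card_dvd_of_le ?_
    rintro _ ⟨γ, hγ, rfl⟩
    exact congrArg Subtype.val (hx ⟨γ, hγ⟩)
  have l1 := f1 ▸ (Nat.factorization_le_iff_dvd Nat.card_pos.ne' Nat.card_pos.ne').2 d1 2
  by_cases r : ∃ s, Iv s x.1
  · obtain ⟨s, r⟩ := r
    rw [card_real (π := MonoidHom.id G) r, pow_succ, Nat.mul_dvd_mul_iff_right two_pos,
      Nat.prime_two.pow_dvd_iff_le_factorization Nat.card_pos.ne'] at d2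
    rw [← h x.1 s r fun k => hz (mem_center_iff.2 fun g => ?_)]
    · exact le_antisymm d2 l1
    · obtain ⟨g, rfl⟩ := hπ g
      rw [← show π x.1 = y from x.2, ← map_mul, ← map_mul, mem_center_iff.1 k g]
  · rw [card_nreal (π := MonoidHom.id G) (not_exists.1 r), mul_one,
      Nat.prime_two.pow_dvd_iff_le_factorization Nat.card_pos.ne'] at d2
    omega

end Cfsg.Agent.Rcs
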