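import Mathlib
import Cfsg.Agent.Rcs.Defs
import Cfsg.Agent.Rcs.Hz
import Cfsg.Agent.RealCls.Base
import Cfsg.Agent.S0071
import Cfsg.Agent.S1261
import Cfsg.Agent.S1265

/-! S3860: reduction to a normal quasisimple subgroup. -/

set_option autoImplicit false
set_option linter.unusedSectionVars false

namespace Cfsg.Agent.Rcs

open Subgroup Cfsg.Agent.PLocal.CF

variable {G : Type*} [Group G] [Finite G] {c : ℕ}

/-- A group in which every real element of every 2-subgroup (real inside that 2-subgroup) is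
central has a normal 2-complement: Frobenius (S0071) + `RealCls.mem_cent_of_real`. -/
theorem nilp_of_real {X : Type*} [Group X] [Finite X]
    (h : ∀ u s : X, Two u → Iv s u → u ∈ center X) (P : Sylow 2 X) :
    ∃ N : Subgroup X, N.Normal ∧ N.IsComplement' (P : Subgroup X) :=
  (S0071.result P).2 fun Q hQ g hg hc => RealCls.mem_cent_of_real (P.isPGroup'.to_le hQ) hg hc
    fun x _ w hw e => mem_center_iff.1 (h w x⁻¹ (Two.of_mem (P.isPGroup'.to_le hQ) hw)
      (by rwa [Iv, inv_inv])) g

theorem exists_real {X : Type*} [Group X] [Finite X] (P : Sylow 2 X) (hP : ¬ (P : Subgroup X).Normal) :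
    ∃ x t : X, x ≠ 1 ∧ Odd (orderOf x) ∧ Iv t x := by
  by_contra! k
  refine hP ((S3861.result P).1 fun x h1 ho hc => ?_)
  obtain ⟨g, e⟩ := isConj_iff.1 hc
  exact k x g⁻¹ h1 ho (by rwa [Iv, inv_inv])

/-- R3.  If `L` is a subgroup containing a nontrivial odd order element real in `L`, every
2-element `u ∈ C(L)` inverted by some `s ∈ C(L)` is central in `G`.  Proof: `y ∈ L` inverted by
`s' ∈ L`; `s s'` inverts `y` and `u`; `mix_dvd`; `grow_iv` with `H = C(u) ∋ s'`; `ub` for `u`. -/
theorem Hyp.cent_real (h : Hyp G c) {L : Subgroup G} {y s' : G} (hy : y ∈ L) (hs' : s' ∈ L)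
    (h1 : y ≠ 1) (ho : Odd (orderOf y)) (hi : Iv s' y) {u s : G} (hu : u ∈ Ce L) (hs : s ∈ Ce L)
    (h2 : Two u) (hsu : Iv s u) : u ∈ center G := by
  by_contra hz
  have c : Commute s' u := hu s' hs'
  have k := h.mix_dvd h1 ho h2 (hu y hy) (hi.mul_left (hs y hy)) (hsu.mul_right c.symm)
  rw [inf_comm] at k
  exact h.ub hsu hz le_rfl (grow_iv (mem_C1.2 c.symm) hi (sq_ne_one_of_odd h1 ho) k)

/-- The reduction.  `O(G) = 1` (in the form `hO`), Sylow 2-subgroup not normal.
Proof.  S3861 gives `x ≠ 1` real of odd order; `exists_pr` (`U = ⊥`, 2-element inverter by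
`exists_odd_pow_two`) and `Pr.l5'` show `x` centralizes `Q = O₂(G)`.  `F(G) = Q` (the odd Sylow
subgroups of `F(G)` are normal in `G`, so trivial by `hO`).  If `G` has no component then
`F*(G) = F(G)`, `x ∈ C(F*) ≤ F* = Q` (S1265), so `x = 1`: contradiction.  Let `L` be a component.
`L` is not 2-closed: otherwise `L` is solvable (`RealCls.isSolvable_of_normal`), perfect, so trivial,
but `L/Z(L)` is simple (nontrivial).  So (S3861 in `L`) `L` has `y ≠ 1` odd, real in `L`.  By
`cent_real` and `nilp_of_real` the group `C(L)` has a normal 2-complement, so it is solvable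
(Feit–Thompson, `RealCls.isSolvable_of_nilp`).  A conjugate `L^g ≠ L` is a component commuting with `L`
(S1261 + equal orders), so a perfect subgroup of the solvable `C(L)`, trivial: contradiction.  So
`L ⊴ G`.  `Z(L) = Zl L ⊴ G` is abelian; its elements of odd order form a normal subgroup of odd
order, trivial; so `Two z` for `z ∈ Zl L` (`exists_parts`).  `z ∈ Zl L`, `z^2 = 1`: `cent_real`
with `s = 1`. -/
theorem Hyp.exists_st (h : Hyp G c) (hO : ∀ N : Subgroup G, N.Normal → Odd (Nat.card N) → N = ⊥)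
    (P : Sylow 2 G) (hP : ¬ (P : Subgroup G).Normal) :
    ∃ L : Subgroup G, L.Normal ∧ St c L := by
  have hF : fittingSubgroup G = pCore 2 G := Grp.fitting_eq_pCore_of_pPrimeCore_eq_bot
    (hO _ inferInstance (Nat.coprime_two_right.1 (Grp.pPrimeCore_coprime 2 G)))
  have hQ := Grp.pCore_isPGroup 2 G
  obtain ⟨L, hL⟩ : ∃ L : Subgroup G, IsComponent L := by
    by_contra! k
    obtain ⟨x, t, h1, ho, hi⟩ := exists_real P hP
    obtain ⟨t', T, p, -⟩ := h.exists_pr' h1 ho hi (U := ⊥) IsPGroup.of_bot bot_le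
    have a := p.l5' h hQ le_normalizer_of_normal (le_normalizer_of_normal (mem_top x))
      (le_normalizer_of_normal (mem_top t'))
    have b := S1265.result (G := G)
    rw [generalizedFittingSubgroup, PLocal.layer_eq_bot_iff.2 k, bot_sup_eq, hF] at b
    exact h1 ((Two.of_mem hQ (b fun q hq => (mem_C1.1 (a hq)).symm.eq)).eq_one ho)
  obtain ⟨y, s', h1, ho, hi⟩ := exists_real (default : Sylow 2 L) fun k =>
    PLocal.qsS_not_le_solvable hL.2 (RealCls.isSolvable_of_normal (default : Sylow 2 L)) le_rfl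
  have key : ∀ u ∈ Ce L, ∀ s ∈ Ce L, Two u → Iv s u → u ∈ center G := fun u hu s hs h2 k =>
    h.cent_real y.2 s'.2 (fun e => h1 (Subtype.ext e)) (by rwa [Subgroup.orderOf_coe])
      (congrArg Subtype.val hi) hu hs h2 k
  have hs : Group.IsSolvable (Ce L) := RealCls.isSolvable_of_nilp ⟨default, nilp_of_real
    (fun u s ⟨k, e⟩ k' => mem_center_iff.2 fun g => Subtype.ext (mem_center_iff.1
      (key u u.2 s s.2 ⟨k, congrArg Subtype.val e⟩ (congrArg Subtype.val k')) g)) _⟩
  have hn : L.Normal := ⟨fun n hn g => by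
    by_contra k
    exact PLocal.qsS_not_le_solvable (PLocal.comp_conj hL g).2 hs (commutator_eq_bot_iff_le_centralizer.1
      (PLocal.comp_commute_of_ne (PLocal.comp_conj hL g) hL fun e => k (e.le ⟨n, hn, rfl⟩)))⟩
  have ab : IsMulCommutative (Zl L) := ⟨⟨fun a b => Subtype.ext (b.2.2 a a.2.1)⟩⟩
  have nil : Group.IsNilpotent (Zl L) := by
    open scoped IsMulCommutative in exact CommGroup.isNilpotent
  have zp : ∀ z ∈ Zl L, Two z := fun z hz =>
    Two.of_mem hQ (hF.le (le_sSup (s := {N : Subgroup G | N.Normal ∧ Group.IsNilpotent N})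
      ⟨inferInstance, nil⟩ hz))
  refine ⟨L, hn, h, hL.2, zp, fun z hz e => key z hz.2 1 (one_mem _) (zp z hz) ?_⟩
  rw [Iv, inv_one, one_mul, mul_one]
  exact eq_inv_of_mul_eq_one_left (by rwa [← pow_two])

end Cfsg.Agent.Rcs
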