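import Mathlib
import Cfsg.Agent.Rcs.Defs
import Cfsg.Agent.Rcs.Hz

/-! S3860: a "type I" configuration forces `a = 1`. -/

set_option autoImplicit false
set_option linter.unusedSectionVars false

namespace Cfsg.Agent.Rcs

open Subgroup Cfsg.Agent.PLocal.CF

variable {G : Type*} [Group G] [Finite G] {c : ℕ}

/-- If `t` inverts `x` (odd order `≠ 1`) and `w ∈ C(x)` of order 4, then `2^(c+2) ∤ |G|`.
Proof.  Replace `t` by an odd power (2-element).  `exists_pr_mix`: `Pr c x t T`, `w ∈ T ≤ C(w)`.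
`ζ = w^2` is central (`sq_central`), `T* = Sd T t`; elements of `T* \ T` invert `w`, and
`T = T* ⊓ C(w)`.  Suppose `2^(c+2) ∣ |G|`: a Sylow `S > T*`; pick `s ∈ S \ T*` normalizing `T*` with
`s^2 ∈ T*` (`lt_inf_nm`, then an element of order 2 in the quotient: take `s₀^(2^j)` with `j` maximal
such that it is `∉ T*`).  `H = Sd T* s` has order `2^(c+2)`.  `w' = s⁻¹ w s ∈ T*`, `w'^2 = ζ`,
`T' = T* ⊓ C(w') = T^s`; elements of `T* \ T'` invert `w'`; `w'^s = w^(s^2) ∈ {w, w⁻¹ = wζ}`.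
* `T' = T`: `e = w w'` has `e^2 = 1`, is centralized by `T` and `t`, so central (else `ub` with
 `H = T*`).  So `w^s = w ν`, `ν = ζ e` central, `ν^2 = 1`; `w^(s^2) = w` so `s^2 ∈ T`; `s ∈ N(T)`.
 If `ν = 1`, `s ∈ C(w)`, so `s ∈ T` by `Pr.mem_of` (y = w), contradiction.  If `ν = ζ`, `s t ∈ C(w)`,
 so `s t ∈ T` in the same way, contradiction.  So `s t ∉ C(w) ⊇ T ⊔ C(T)`; `ph t s ∈ T`
 (it lies in `T*` and commutes with `w`); `Pr.l6` finishes.
* `T' ≠ T`, `w ∈ T'` (then `w' ∈ T`, they commute): `e = w w'`, `e^2 = 1`; an element of `T \ T'`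
 (exists: equal orders) sends `e` to `e ζ`, so `e ∉ Z(G)`; `H` permutes `{e, eζ}`
 (`e^s = w' w^{±1}`); `dvd_of_two_conj` gives `2^(c+1) ∣ |H ⊓ C(e)|`, against `ub`.
* `w ∉ T'`: `w` inverts `w'`, so `w' ∉ T` inverts `w`; `f = w w'`, `f^2 = ζ`, `f^w = fζ = f⁻¹`;
 `H` permutes `{f, fζ}` (`w' w = w⁻¹ w' = fζ`); same contradiction. -/
theorem Hyp.a1 (h : Hyp G c) {x w t : G} (h1 : x ≠ 1) (ho : Odd (orderOf x)) (hw : orderOf w = 4)
    (hc : Commute x w) (hx : Iv t x) (hi : Iv t w) : ¬ 2 ^ (c + 2) ∣ Nat.card G := by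
  intro ha
  obtain ⟨k, hk, ht⟩ := exists_odd_pow_two t
  replace hx := hx.pow_odd hk
  replace hi := hi.pow_odd hk
  generalize t ^ k = t at hx hi ht
  have w4 : w ^ 4 = 1 := hw ▸ pow_orderOf_eq_one w
  have w2 : w ^ 2 ≠ 1 := pow_ne_one_of_lt_orderOf two_ne_zero (by omega)
  obtain ⟨T, p, wT, Tw⟩ := h.exists_pr_mix h1 ho ⟨2, w4⟩ hc hx hi ht
  have iv : ∀ q ∈ Sd T t, q ∉ T → Iv q w := fun q hq hn => by
    have := hi.mul_right (mem_C1.1 (Tw (((mem_Sd p.nm p.sq).1 hq).resolve_left hn)))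
    rwa [mul_inv_cancel_left] at this
  have mT : ∀ q ∈ Sd T t, Commute w q → q ∈ T := fun q hq c => by_contra fun hn => w2 (by
    have : q⁻¹ * w * q = w⁻¹ := iv q hq hn
    rw [mul_assoc, c.eq, inv_mul_cancel_left] at this
    rw [sq, ← eq_inv_iff_mul_eq_one, ← this])
  obtain ⟨s, s1, s2, s3⟩ : ∃ s ∈ Nm (Sd T t), s ∉ Sd T t ∧ s ^ 2 ∈ Sd T t := by
    obtain ⟨S, l, hS⟩ := exists_syl p.pg_sd le_top
    obtain ⟨s, hs, n⟩ := SetLike.exists_of_lt (lt_inf_nm hS.pg (lt_of_le_of_ne l fun e => by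
      rw [← (Sd T t).card_mul_index, p.card_sd, pow_succ 2 (c + 1)] at ha
      exact hS.nd (by
        rw [← e, relIndex_top_right]
        exact Nat.dvd_of_mul_dvd_mul_left (by positivity) ha)))
    obtain ⟨j, hj⟩ := Two.of_mem hS.pg hs.1
    replace hj : s ^ 2 ^ j ∈ Sd T t := hj ▸ one_mem _
    induction j with
    | zero => exact absurd (by simpa using hj) n
    | succ j ih =>
      by_cases e : s ^ 2 ^ j ∈ Sd T t
      · exact ih e
      · exact ⟨_, pow_mem hs.2 _, e, by rwa [← pow_mul, ← pow_succ]⟩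
  have cH := card_Sd s1 s3 s2
  rw [p.card_sd, ← pow_succ'] at cH
  have wP : w ∈ Sd T t := mem_sup_left wT
  have tP : t ∈ Sd T t := mem_sup_right (mem_zpowers t)
  have hz := mem_center_iff.1 (h.sq_central hi w4)
  have wi : w⁻¹ = w * w ^ 2 := inv_eq_of_mul_eq_one_right (by rw [← w4]; group)
  have zz : w ^ 2 * w ^ 2 = 1 := by rw [← w4]; group
  generalize w ^ 2 = z at hz wi zz
  let R : G → G → Prop := fun a b => a = b ∨ a = b * z
  have tr : ∀ {a b d}, R a b → R b d → R a d := by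
    rintro a b d (rfl | rfl) (rfl | rfl)
    exacts [.inl rfl, .inr rfl, .inr rfl, .inl (by rw [mul_assoc, zz, mul_one])]
  have cn : ∀ {a b} g, R a b → R (g⁻¹ * a * g) (g⁻¹ * b * g) := by
    rintro a b g (rfl | rfl)
    exacts [.inl rfl, .inr (by rw [mul_assoc _ g, hz g]; group)]
  have ml : ∀ {a b} d, R a b → R (d * a) (d * b) := by
    rintro a b d (rfl | rfl)
    exacts [.inl rfl, .inr (mul_assoc _ _ _).symm]
  have mr : ∀ {a b} d, R a b → R (a * d) (b * d) := by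
    rintro a b d (rfl | rfl)
    exacts [.inl rfl, .inr (by rw [mul_assoc _ d, hz d, mul_assoc])]
  have f1 : ∀ q ∈ Sd T t, R (q⁻¹ * w * q) w := fun q hq => by
    by_cases c : q ∈ T
    · exact .inl (by rw [mul_assoc, (mem_C1.1 (Tw c)).eq, inv_mul_cancel_left])
    · exact .inr ((iv q hq c).trans wi)
  have f3 : ∀ q ∈ Sd T t, R (q⁻¹ * (w * (s⁻¹ * w * s)) * q) (w * (s⁻¹ * w * s)) := fun q hq => by
    rw [show q⁻¹ * (w * (s⁻¹ * w * s)) * q =
      q⁻¹ * w * q * (s⁻¹ * ((s * q * s⁻¹)⁻¹ * w * (s * q * s⁻¹)) * s) by group]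
    exact tr (mr _ (f1 q hq)) (ml _ (cn s (f1 _ (conj_mem_of_mem_nm s1 hq))))
  have f4 : R (s⁻¹ * (w * (s⁻¹ * w * s)) * s) (w * (s⁻¹ * w * s)) := by
    refine tr ?_ (f3 w wP)
    rw [show s⁻¹ * (w * (s⁻¹ * w * s)) * s = s⁻¹ * w * s * ((s ^ 2)⁻¹ * w * s ^ 2) by
      rw [sq]; group,
      inv_mul_cancel_left]
    exact ml _ (f1 _ s3)
  have ec : w * (s⁻¹ * w * s) ∈ center G := by
    by_contra n
    refine h.ub (t := w) ?_ n inf_le_right (dvd_of_two_conj (H := Sd (Sd T t) s)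
      (e' := w * (s⁻¹ * w * s) * z) (fun q hq => ?_) cH.symm.dvd)
    · calc _ = s⁻¹ * w * (s * w * z) * z := by rw [mul_assoc (s⁻¹ * w), mul_assoc _ z, zz]; group
        _ = s⁻¹ * (w * z) * s * (w * z) := by rw [hz (s * w)]; group
        _ = _ := by rw [← wi]; group
    · rcases (mem_Sd s1 s3).1 hq with c | c
      · exact f3 q c
      · have := tr (cn _ f4) (f3 _ c)
        rwa [show ∀ e, (s⁻¹ * q)⁻¹ * (s⁻¹ * e * s) * (s⁻¹ * q) = q⁻¹ * e * q
          from fun e => by group] at this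
  replace ec := mem_center_iff.1 ec
  have s4 : s ∈ Nm T := mem_normalizer_fintype fun q hq => mT _
    (conj_mem_of_mem_nm s1 (mem_sup_left hq)) (by
      have c := (mem_C1.1 (Tw hq)).inv_left.mul_left (ec q).symm
      rw [inv_mul_cancel_left] at c
      calc w * (s * q * s⁻¹) = s * (s⁻¹ * w * s * q) * s⁻¹ := by group
        _ = _ := by rw [c.eq]; group)
  refine p.l6 h s4 (mT _ s3 ?_) (((mem_Sd p.nm p.sq).1 ((mem_normalizer_iff''.1 s1 t).1 tP)).resolve_left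
    fun c => p.notMem ((mem_normalizer_iff''.1 s4 t).2 c)) (fun c => s2 (mem_sup_left c)) fun c => ?_
  · have a : s⁻¹ * (w * (s⁻¹ * w * s)) * s = w⁻¹ * (w * (s⁻¹ * w * s)) * w := by
      rw [mul_assoc, ← ec s, mul_assoc w⁻¹, ← ec w]; group
    calc w * s ^ 2 = s ^ 2 * (s⁻¹ * w * s)⁻¹ * (s⁻¹ * (w * (s⁻¹ * w * s)) * s) := by rw [sq]; group
      _ = s ^ 2 * w := by rw [a]; group
  · refine s2 ((mul_mem_cancel_right tP).1 (mem_sup_left (p.mem_of h hi (not_central_of_iv hi w2) Tw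
      (mem_C1.1 ((sup_le Tw fun g hg => mem_C1.2 (hg w wT) : T ⊔ Ce T ≤ C1 w) c))
      (mul_mem s4 p.nm) (Two.of_mem (IsPGroup.of_card cH)
        (mul_mem (mem_sup_right (mem_zpowers s)) (mem_sup_left tP))))))

/-- (II-strong) if `a ≥ 2`, a 2-element commuting with `x` and inverted together with `x` is
central: if `u^2 = 1` use `mix_invol`; else a power of order 4 and `a1`. -/
theorem Hyp.mix_central (h : Hyp G c) (ha : 2 ^ (c + 2) ∣ Nat.card G) {x u t : G} (h1 : x ≠ 1)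
    (ho : Odd (orderOf x)) (hu : Two u) (hc : Commute x u) (hx : Iv t x) (hi : Iv t u) :
    u ∈ center G := by
  by_cases h2 : u ^ 2 = 1
  · refine h.mix_invol h1 ho h2 hc hx ?_
    have : t⁻¹ * u * t = u := hi.trans (inv_eq_of_mul_eq_one_right (by rw [← sq, h2]))
    rwa [mul_assoc, inv_mul_eq_iff_eq_mul] at this
  · obtain ⟨k, hk⟩ := hu.exists_four h2
    exact absurd ha (h.a1 h1 ho hk (hc.pow_right k) hx (hi.pow k))

end Cfsg.Agent.Rcs
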